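import Cfsg.Agent.Chars2.E6Two.Moves

/-! Checking a certificate for the reduction of involutions of ²E₆(q), q even. -/

set_option autoImplicit false

universe u

namespace Cfsg.Agent.E6Two

open Cfsg.Lie Cfsg.Agent.Chev
open scoped Matrix MatrixGroups

/-- One step of the reduction. The numbers of a killing step are: kind, enlarged mask, killed root,
conjugating root, feeding root, middle root, auxiliary root, its feeder, child. -/
inductive Step where
  | leaf
  | contra (u w c : ℕ)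
  | split (r i j : ℕ)
  | move (L : List ℕ) (i : ℕ)
  | kill (kind S' γ b d m e f i : ℕ)

/-- A node: mask, mask of known nonzero coordinates, step. -/
abbrev Node := ℕ × ℕ × Step

/-- For all positive roots. -/
def allR (f : ℕ → Bool) : Bool := (List.range 36).all fun i => f (i + 36)

/-- root range -/
def inB (r : ℕ) : Bool := decide (36 ≤ r) && decide (r < 72)

/-- closed mask -/
def okB (S : ℕ) : Bool :=
  S % 2 ^ 36 == 0 && decide (S < 2 ^ 72) &&
    allR fun a => !S.testBit a || (addTo a).all fun p => !S.testBit p.1 || S.testBit p.2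

/-- stable mask -/
def rhoB (S : ℕ) : Bool := allR fun a => !S.testBit a || S.testBit (rho a)

/-- indecomposable root -/
def indB (S c : ℕ) : Bool :=
  allR fun a => !S.testBit a || (addTo a).all fun p => !S.testBit p.1 || p.2 != c

/-- stable under a root -/
def stabB (S T b : ℕ) : Bool := (addTo b).all fun p => !S.testBit p.1 || T.testBit p.2

/-- inclusion -/
def subB (S T : ℕ) : Bool := S &&& T == S

/-- only `d` feeds -/
def onlyB (S b r d : ℕ) : Bool := (addTo b).all fun p => !S.testBit p.1 || p.2 != r || p.1 == d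

/-- nothing feeds -/
def noneB (S b r : ℕ) : Bool := (addTo b).all fun p => !S.testBit p.1 || p.2 != r

/-- feeding pair -/
def hasB (b d r : ℕ) : Bool := (addTo b).contains (d, r)

/-- image under a word -/
def img (L : List ℕ) (r : ℕ) : ℕ := L.foldr refT r

/-- the condition on the known nonzero coordinates of a child of a killing step -/
def keepB (N S' b b2 Nc : ℕ) : Bool :=
  subB Nc N && allR fun v => !Nc.testBit v ||
    (indB S' v && stabB (del S' v) (del S' v) b && stabB (del S' v) (del S' v) b2)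

/-- kind 1: long root, long feeder -/
def k1B (S S' γ b d Sc : ℕ) : Bool :=
  rho b == b && indB S d && rho d == d && rho γ == γ && hasB b d γ && onlyB S b γ d &&
    Sc == del (del S' γ) (rho γ)

/-- kind 2: short root, one feeder -/
def k2B (S S' γ b d Sc : ℕ) : Bool :=
  rho b != b && indB S' d && hasB b d γ && onlyB S' b γ d && noneB S (rho b) γ && noneB S (rho b) d &&
    Sc == del (del S' γ) (rho γ)

/-- kind 3: short root, conjugate feeders -/
def k3B (S S' γ b d Sc : ℕ) : Bool :=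
  rho b != b && indB S' d && indB S' (rho d) && rho γ == γ && hasB b d γ && hasB (rho b) (rho d) γ &&
    onlyB S' b γ d && onlyB S (rho b) γ (rho d) && noneB S (rho b) d && Sc == del (del S' γ) (rho γ)

/-- kinds 4 and 6: a chain of feeders -/
def chainB (S S' γ b d m : ℕ) : Bool :=
  rho b != b && indB S d && rho d == d && rho γ == γ && !S.testBit m && S'.testBit m && indB S' m &&
    hasB (rho b) d m && hasB b m γ && onlyB S' b γ m && noneB S (rho b) γ && onlyB S (rho b) m d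

/-- kind 5: long root, short feeder -/
def k5B (S S' γ b d e Sc : ℕ) : Bool :=
  let S2 := del (del S d) (rho d)
  rho b == b && indB S d && indB S (rho d) && inB (rho d) && S.testBit (rho d) &&
    hasB b d γ && onlyB S b γ d && S.testBit γ && indB S γ && γ != d && γ != rho d &&
    rho d != d &&
    (addTo d).all (fun p => p.1 != rho d) &&
    stabB S2 S2 d && stabB S2 S2 (rho d) && S2.testBit e && indB S2 e &&
    S.testBit (rho γ) && indB S (rho γ) && rho γ != d && rho γ != rho d &&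
    hasB d (rho γ) e && hasB (rho d) γ e && onlyB S2 d e (rho γ) && onlyB S2 (rho d) e γ &&
    noneB S2 (rho d) (rho γ) && Sc == del (del S' γ) (rho γ)

/-- kind 6: the additional root -/
def k6B (S N S' γ b e f Sc : ℕ) : Bool :=
  !S.testBit e && S'.testBit e && indB S' e && rho e == e && N.testBit f && S.testBit f &&
    indB S' f && indB S' (rho f) && hasB b f e && hasB (rho b) (rho f) e &&
    onlyB S' b e f && onlyB S (rho b) e (rho f) && noneB S (rho b) f &&
    Sc == del (del (del S' γ) (rho γ)) e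

/-- the common part of a killing step -/
def preB (S N S' γ b d Nc : ℕ) : Bool :=
  okB S' && subB S S' && rhoB S' && inB b && inB (rho b) && stabB S' S' b && stabB S S' (rho b) &&
  S'.testBit γ && indB S' γ && indB S' (rho γ) && keepB N S' b (rho b) Nc && N.testBit d && S.testBit d

/-- check of a killing step -/
def killB (S N kind S' γ b d m e f Sc Nc : ℕ) : Bool :=
  preB S N S' γ b d Nc &&
    (kind == 1 && k1B S S' γ b d Sc || kind == 2 && k2B S S' γ b d Sc || kind == 3 && k3B S S' γ b d Sc ||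
      kind == 4 && (chainB S S' γ b d m && Sc == del (del S' γ) (rho γ)) || kind == 5 && k5B S S' γ b d e Sc ||
      kind == 6 && (chainB S S' γ b d m && k6B S N S' γ b e f Sc))

/-- check of a node against the nodes after it -/
def stepB (rest : List Node) (S N : ℕ) : Step → Bool
  | .leaf => terms.contains S && N == S
  | .contra u w c =>
      let S1 := del S u
      N.testBit u && N.testBit w && S.testBit u && S.testBit w && indB S u && indB S w && w != u &&
        stabB S1 S1 u && S1.testBit c && indB S1 c && hasB u w c && onlyB S1 u c w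
  | .split r i j =>
      match rest[i]?, rest[j]? with
      | some (S1, N1, _), some (S2, N2, _) =>
          S.testBit r && indB S r && indB S (rho r) && S1 == del (del S r) (rho r) && subB N1 N &&
            S2 == S && allR (fun v => !N2.testBit v || N.testBit v || v == r || v == rho r) && subB N2 S
      | _, _ => false
  | .move L i =>
      match rest[i]? with
      | some (T, Nc, _) =>
          L.all (fun k => decide (k < 4)) && okB T && subB Nc T &&
            allR (fun r => !S.testBit r || T.testBit (img L r)) &&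
            allR (fun s => !T.testBit s || (S.testBit (img L.reverse s) && img L (img L.reverse s) == s)) &&
            allR (fun v => !Nc.testBit v || N.testBit (img L.reverse v))
      | none => false
  | .kill kind S' γ b d m e f i =>
      match rest[i]? with
      | some (Sc, Nc, _) => killB S N kind S' γ b d m e f Sc Nc
      | none => false

/-- check of a certificate -/
def certB : List Node → Bool
  | [] => true
  | (S, N, s) :: rest => okB S && rhoB S && subB N S && stepB rest S N s && certB rest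

variable {S N S' T b r c d : ℕ}

theorem subB_ok (h : subB S T = true) (r : ℕ) (hr : Mem S r) : Mem T r := by
  unfold subB at h
  have e : (S &&& T).testBit r = true := by rw [beq_iff_eq.mp h]; exact hr
  rw [Nat.testBit_and, Bool.and_eq_true] at e
  exact e.2

theorem allR_ok {f : ℕ → Bool} (h : allR f = true) {r : ℕ} (hr : InR r) : f r = true := by
  unfold allR at h
  rw [List.all_eq_true] at h
  have := h (r - 36) (List.mem_range.mpr (by have := hr.1; have := hr.2; omega))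
  rwa [Nat.sub_add_cancel hr.1] at this

theorem inB_ok (h : inB r = true) : InR r := by
  simp [inB] at h; exact h

theorem okB_ok (h : okB S = true) : Ok S := by
  simp only [okB, Bool.and_eq_true, beq_iff_eq, decide_eq_true_eq] at h
  obtain ⟨⟨h1, h2⟩, h3⟩ := h
  have hR : ∀ r, Mem S r → InR r := by
    intro r hr
    constructor
    · by_contra hlt
      have : (S % 2 ^ 36).testBit r = true := by
        rw [Nat.testBit_mod_two_pow, show S.testBit r = true from hr]; simp; omega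
      rw [h1] at this; simp at this
    · by_contra hge
      have : S.testBit r = false := Nat.testBit_lt_two_pow
        (lt_of_lt_of_le h2 (Nat.pow_le_pow_right (by norm_num) (by omega)))
      rw [Mem, this] at hr; simp at hr
  refine ⟨hR, fun a ha p hp hp1 => ?_⟩
  have := allR_ok h3 (hR a ha)
  simp [show S.testBit a = true from ha] at this
  exact (this p.1 p.2 hp).resolve_left (by simp [show S.testBit p.1 = true from hp1])

theorem rhoB_ok (hS : Ok S) (h : rhoB S = true) : RhoSt S := fun r hr => by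
  have := allR_ok h (hS.range r hr)
  simpa [show S.testBit r = true from hr] using this

theorem indB_ok (hS : Ok S) (h : indB S c = true) : Ind S c := fun a ha p hp hp1 => by
  have := allR_ok h (hS.range a ha)
  simp [show S.testBit a = true from ha] at this
  exact (this p.1 p.2 hp).resolve_left (by simp [show S.testBit p.1 = true from hp1])

theorem stabB_ok (h : stabB S T b = true) : Stab S T b := fun p hp hp1 => by
  simp [stabB] at h
  exact (h p.1 p.2 hp).resolve_left (by simp [show S.testBit p.1 = true from hp1])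

theorem onlyB_ok (h : onlyB S b r d = true) : ∀ p ∈ addTo b, Mem S p.1 → p.2 = r → p.1 = d :=
  fun p hp hp1 hp2 => by
    simp [onlyB] at h
    exact ((h p.1 p.2 hp).resolve_left (by simp [show S.testBit p.1 = true from hp1, hp2]))

theorem noneB_ok (h : noneB S b r = true) : ∀ p ∈ addTo b, Mem S p.1 → p.2 ≠ r := fun p hp hp1 => by
  simp [noneB] at h
  exact (h p.1 p.2 hp).resolve_left (by simp [show S.testBit p.1 = true from hp1])

theorem hasB_ok (h : hasB b d r = true) : (d, r) ∈ addTo b := by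
  unfold hasB at h; exact List.contains_iff_mem.mp h

variable {K : Type u} [Field K] (τ : K →+* K) (hτ : ∀ x, (τ)^[2] x = x) [CharP K 2]

/-- The product of representatives of a word in reflections. -/
theorem word_facts (L : List ℕ) (hL : ∀ k ∈ L, k < 4) :
    Cert.nWordElt cert6.{u} K (L.flatMap gE6.ow) ∈ (tE6 τ hτ).small ∧ (∀ i ∈ L.flatMap gE6.ow, i < chevE6.rank) ∧
      ∀ r < 72, act chevE6 (L.flatMap gE6.ow) r = img L r ∧ img L r < 72 := by
  have hrk : ∀ k < 4, k < chevE6.rank ∧ ∀ i ∈ gE6.ow k, i < chevE6.rank := by decide +kernel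
  induction L with
  | nil => exact ⟨by simp [Cert.nWordElt], by simp, fun r hr => ⟨rfl, hr⟩⟩
  | cons k L ih =>
    obtain ⟨h1, h2, h3⟩ := ih fun i hi => hL i (List.mem_cons_of_mem _ hi)
    have hk := hL k List.mem_cons_self
    rw [List.flatMap_cons]
    refine ⟨?_, fun i hi => ?_, fun r hr => ?_⟩
    · rw [show Cert.nWordElt cert6.{u} K (gE6.ow k ++ L.flatMap gE6.ow) =
        Cert.nWordElt cert6.{u} K (gE6.ow k) * Cert.nWordElt cert6.{u} K (L.flatMap gE6.ow) by simp [Cert.nWordElt]]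
      refine mul_mem ?_ h1
      have := (tE6 τ hτ).nJ_mem (hrk k hk).1 ((tE6 τ hτ).valid_one (chevE6.simple k))
      rwa [(tE6 τ hτ).nJ_one (hrk k hk).1] at this
    · rcases List.mem_append.mp hi with h | h
      exacts [(hrk k hk).2 i h, h2 i h]
    · rw [act_append, (h3 r hr).1]
      exact ref_ok k hk _ (h3 r hr).2

theorem move_ok {Nc : ℕ} (hS : Ok S) {L : List ℕ} (hL : ∀ k ∈ L, k < 4) (hT : Ok T) (hNc : ∀ v, Mem Nc v → Mem T v)
    (h1 : ∀ r, Mem S r → Mem T (img L r))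
    (h2 : ∀ s, Mem T s → Mem S (img L.reverse s) ∧ img L (img L.reverse s) = s)
    (h3 : ∀ v, Mem Nc v → Mem N (img L.reverse v)) (hQ : Q τ hτ T Nc) : Q τ hτ S N := by
  intro g hg
  obtain ⟨hn, hlt, hact⟩ := word_facts τ hτ L hL
  set n := Cert.nWordElt cert6.{u} K (L.flatMap gE6.ow)
  have key : ∀ r < 72, ∀ t : K, n * cert6.{u}.xu r t * n⁻¹ = cert6.{u}.xu (img L r) t := fun r hr t => by
    rw [Cert.conj_xu_two cert6.{u} hlt (nroots_eq.symm ▸ hr), (hact r hr).1]
  refine good_conj τ hτ hn (hQ _ ⟨?_, ?_, ?_, ?_⟩)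
  · have hf : (tE6 τ hτ).sigma n = n := (tE6 τ hτ).small_le_fixed hn
    rw [map_mul, map_mul, map_inv, hf, hg.fix]
  · rw [show n * g * n⁻¹ * (n * g * n⁻¹) = n * (g * g) * n⁻¹ by group, hg.sq]; group
  · have hle : spn K S ≤ (spn K T).comap (MulAut.conj n).toMonoidHom :=
      Cert.span_le cert6.{u} fun r hr t => by
        show n * cert6.{u}.xu r t * n⁻¹ ∈ spn K T
        rw [key r (hS.range r hr).2]
        exact Cert.xu_mem_span cert6.{u} (h1 r hr) _
    exact hle hg.mem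
  · intro v hv hmem
    have hle : spn K (del T v) ≤ (spn K (del S (img L.reverse v))).comap (MulAut.conj n⁻¹).toMonoidHom :=
      Cert.span_le cert6.{u} fun s hs t => by
        show n⁻¹ * cert6.{u}.xu s t * n⁻¹⁻¹ ∈ spn K (del S _)
        obtain ⟨hsS, hs2⟩ := h2 s (mem_del.mp hs).1
        rw [← hs2, ← key _ (hS.range _ hsS).2,
          show n⁻¹ * (n * cert6.{u}.xu (img L.reverse s) t * n⁻¹) * n⁻¹⁻¹ = cert6.{u}.xu (img L.reverse s) t by group]
        refine Cert.xu_mem_span cert6.{u} (mem_del.mpr ⟨hsS, fun e => (mem_del.mp hs).2 ?_⟩) _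
        rw [← hs2, e, (h2 v (hNc v hv)).2]
    have := hle hmem
    change n⁻¹ * (n * g * n⁻¹) * n⁻¹⁻¹ ∈ spn K _ at this
    rw [show n⁻¹ * (n * g * n⁻¹) * n⁻¹⁻¹ = g by group] at this
    exact hg.non _ (h3 v hv) this

theorem contra_ok {u' w : ℕ} (hS : Ok S) (hu : Mem N u') (hw : Mem N w) (huS : Mem S u') (hwS : Mem S w)
    (hui : Ind S u') (hwi : Ind S w) (hne : w ≠ u') (hst : Stab (del S u') (del S u') u')
    (hc : Mem (del S u') c) (hci : Ind (del S u') c) (hwc : (w, c) ∈ addTo u')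
    (hf : ∀ p ∈ addTo u', Mem (del S u') p.1 → p.2 = c → p.1 = w) : Q τ hτ S N := by
  intro g hg
  exfalso
  obtain ⟨a, ha⟩ := crd_exists hS huS hui hg.mem
  obtain ⟨e, he⟩ := crd_exists hS hwS hwi hg.mem
  have hS1 := hS.delete hui
  have he1 := peel hS huS hui hwS hwi hne ha he
  set k := (cert6.{u}.xu u' a)⁻¹ * g with hk
  obtain ⟨z, hz⟩ := crd_exists hS1 hc hci ha
  have h1 := cj_crd (hS.range u' huS) hS1 hS1 (fun _ h => h) hst hc hci (mem_del.mpr ⟨hwS, hne⟩)
    (hwi.mono fun x hx => (mem_del.mp hx).1) hwc hf ha a hz he1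
  have h2 := crd_mul hS1 hc hci h1 hz
  have hone : cj u' a k * k = 1 := by
    have h := hg.sq
    rw [show g = cert6.{u}.xu u' a * k by rw [hk, mul_inv_cancel_left]] at h
    unfold cj; rw [xu_self, ← h]; group
  rw [hone] at h2
  have h3 := crd_uniq hS1 hc hci h2 crd_one
  rw [show z + a * e + z = a * e by rw [add_right_comm, CharTwo.add_self_eq_zero, zero_add]] at h3
  rcases mul_eq_zero.mp h3 with h | h
  exacts [crd_ne_zero τ hτ hg hu ha h, crd_ne_zero τ hτ hg hw he h]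

theorem split_ok {N1 N2 : ℕ} (hS : Ok S) (hρ : RhoSt S) (hr : Mem S r) (hi : Ind S r) (hi2 : Ind S (rho r))
    (hN1 : ∀ v, Mem N1 v → Mem N v) (hN2 : ∀ v, Mem N2 v → Mem N v ∨ v = r ∨ v = rho r)
    (hQ1 : Q τ hτ (del (del S r) (rho r)) N1) (hQ2 : Q τ hτ S N2) : Q τ hτ S N := by
  intro g hg
  obtain ⟨c, hc⟩ := crd_exists hS hr hi hg.mem
  have hc2 := crd_sig τ hτ hS hρ (hS.range r hr) hi hg.fix hc
  by_cases h0 : c = 0
  · subst h0
    rw [map_zero] at hc2
    have hmem : g ∈ spn K (del (del S r) (rho r)) := Cert.span_mono cert6.{u}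
      (fun z hz => mem_del.mpr ⟨hz.1, (mem_del.mp hz.2).2⟩)
      (Cert.span_inf cert6.{u} (hS.delete hi).closedSet (hS.delete hi2).closedSet
        (crd_zero_iff.mp hc) (crd_zero_iff.mp hc2))
    refine hQ1 g ⟨hg.fix, hg.sq, hmem, fun v hv hm => hg.non v (hN1 v hv) (span_mono (fun z hz => ?_) hm)⟩
    exact mem_del.mpr ⟨(mem_del.mp (mem_del.mp (mem_del.mp hz).1).1).1, (mem_del.mp hz).2⟩
  · refine hQ2 g ⟨hg.fix, hg.sq, hg.mem, fun v hv hm => ?_⟩
    rcases hN2 v hv with h | rfl | rfl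
    · exact hg.non v h hm
    · exact h0 (crd_uniq hS hr hi hc (crd_zero_iff.mpr hm))
    · have := crd_uniq hS (hρ r hr) hi2 hc2 (crd_zero_iff.mpr hm)
      exact h0 (τ.injective (this.trans (map_zero τ).symm))

theorem leaf_ok (hT : S ∈ terms) : Q τ hτ S S := fun g hg =>
  ⟨1, one_mem _, S, hT, by simpa using hg.mem, fun r hr => by simpa using hg.non r hr⟩

theorem keepB_ok {b2 Nc : ℕ} (hS : Ok S) (hNS : ∀ v, Mem N v → Mem S v) (hS' : Ok S')
    (h : keepB N S' b b2 Nc = true) : ∀ v, Mem Nc v →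
      Mem N v ∧ Ind S' v ∧ Stab (del S' v) (del S' v) b ∧ Stab (del S' v) (del S' v) b2 := by
  simp only [keepB, Bool.and_eq_true] at h
  intro v hv
  have hN := subB_ok h.1 v hv
  have := allR_ok h.2 (hS.range v (hNS v hN))
  simp only [show Nc.testBit v = true from hv, Bool.not_true, Bool.false_or, Bool.and_eq_true] at this
  exact ⟨hN, indB_ok hS' this.1.1, stabB_ok this.1.2, stabB_ok this.2⟩

theorem sub_del₂ : ∀ z, Mem (del (del S r) d) z → Mem S z := fun _ hz => (mem_del.mp (mem_del.mp hz).1).1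

section kills

variable {γ m e f Sc Nc : ℕ} {g : GL chevE6.Idx K}

theorem pre_ok (hS : Ok S) (hNS : ∀ v, Mem N v → Mem S v) (h : preB S N S' γ b d Nc = true) :
    KillPre S N S' γ b (rho b) ∧ Mem N d ∧ Mem S d ∧ ∀ v, Mem Nc v →
      Mem N v ∧ Ind S' v ∧ Stab (del S' v) (del S' v) b ∧ Stab (del S' v) (del S' v) (rho b) := by
  simp only [preB, Bool.and_eq_true] at h
  obtain ⟨⟨⟨⟨⟨⟨⟨⟨⟨⟨⟨⟨h1, h2⟩, h3⟩, h4⟩, h5⟩, h6⟩, h7⟩, h8⟩, h9⟩, h10⟩, h11⟩, h12⟩, h13⟩ := h
  have hS' := okB_ok h1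
  exact ⟨⟨hS, hS', subB_ok h2, rhoB_ok hS' h3, inB_ok h4, inB_ok h5, stabB_ok h6, stabB_ok h7, h8,
    indB_ok hS' h9, indB_ok hS' h10⟩, h12, h13, keepB_ok hS hNS hS' h11⟩

theorem fix_crd (hS : Ok S) (hρ : RhoSt S) (hr : Mem S r) (hi : Ind S r) (hrr : rho r = r)
    (hg : (tE6 τ hτ).sigma g = g) {c : K} (hc : Crd S r g c) : τ c = c := by
  have := crd_sig τ hτ hS hρ (hS.range r hr) hi hg hc
  rw [hrr] at this
  exact crd_uniq hS hr hi this hc

theorem div_cancel_two {c e : K} (he : e ≠ 0) : c + c / e * e = 0 := by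
  rw [div_mul_cancel₀ _ he, CharTwo.add_self_eq_zero]

omit [CharP K 2] in
theorem cj_zero (g : GL chevE6.Idx K) : cj b (0 : K) g = g := by
  unfold cj; rw [Cert.xu_zero]; group

/-- finishing a step with coordinate zero at the killed root -/
theorem kill_end (P : KillPre S N S' γ b (rho b)) (hg : St τ hτ S N g)
    (hN : ∀ v, Mem Nc v → Mem N v ∧ Ind S' v ∧ Stab (del S' v) (del S' v) b ∧ Stab (del S' v) (del S' v) (rho b))
    (hQ : Q τ hτ (del (del S' γ) (rho γ)) Nc) {x y : K}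
    (hh : cert6.{u}.xu b x * cert6.{u}.xu (rho b) y ∈ (tE6 τ hτ).small)
    (h0 : Crd S' γ (cj b x (cj (rho b) y g)) 0) : Good τ hτ g :=
  finish τ hτ hg P.okS P.okS' P.inb P.inb2 sub_del₂ hN hQ hh (kill_zero τ hτ P hg.fix hh h0)

theorem k1_ok (hρ : RhoSt S) (P : KillPre S N S' γ b (rho b)) (hdN : Mem N d) (hdS : Mem S d)
    (hN : ∀ v, Mem Nc v → Mem N v ∧ Ind S' v ∧ Stab (del S' v) (del S' v) b ∧ Stab (del S' v) (del S' v) (rho b))
    (h : k1B S S' γ b d Sc = true) (hQ : Q τ hτ Sc Nc) (hg : St τ hτ S N g) : Good τ hτ g := by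
  simp only [k1B, Bool.and_eq_true, beq_iff_eq] at h
  obtain ⟨⟨⟨⟨⟨⟨hbb, hdi⟩, hdd⟩, hγγ⟩, hd⟩, hf⟩, rfl⟩ := h
  have hdi' := indB_ok P.okS hdi
  obtain ⟨c, hc⟩ := crd_exists P.okS' P.gmem P.gind (span_mono P.sub hg.mem)
  obtain ⟨a, ha⟩ := crd_exists P.okS hdS hdi' hg.mem
  have ha0 := crd_ne_zero τ hτ hg hdN ha
  have hx : τ (c / a) = c / a := by
    rw [map_div₀, fix_crd τ hτ P.okS' P.rhoS' P.gmem P.gind hγγ hg.fix hc,
      fix_crd τ hτ P.okS hρ hdS hdi' hdd hg.fix ha]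
  refine kill_end τ hτ P hg hN hQ (x := c / a) (y := 0)
    (by rw [Cert.xu_zero, mul_one]; exact long_mem τ hτ P.inb hbb hx) ?_
  rw [cj_zero]
  have := cj_crd P.inb P.okS P.okS' P.sub (hbb ▸ P.st2) P.gmem P.gind hdS hdi' (hasB_ok hd) (onlyB_ok hf)
    hg.mem (c / a) hc ha
  rwa [div_cancel_two ha0] at this

theorem k2_ok (P : KillPre S N S' γ b (rho b)) (hdN : Mem N d) (hdS : Mem S d)
    (hN : ∀ v, Mem Nc v → Mem N v ∧ Ind S' v ∧ Stab (del S' v) (del S' v) b ∧ Stab (del S' v) (del S' v) (rho b))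
    (h : k2B S S' γ b d Sc = true) (hQ : Q τ hτ Sc Nc) (hg : St τ hτ S N g) : Good τ hτ g := by
  simp only [k2B, Bool.and_eq_true, beq_iff_eq, bne_iff_ne] at h
  obtain ⟨⟨⟨⟨⟨⟨hbb, hdi⟩, hd⟩, hf1⟩, hf2⟩, hf3⟩, rfl⟩ := h
  obtain ⟨c, a, ha0, -, -, key⟩ := kill_single τ hτ P hdN hdS (indB_ok P.okS' hdi) (hasB_ok hd) (onlyB_ok hf1)
    (noneB_ok hf2) (noneB_ok hf3) hg
  refine kill_end τ hτ P hg hN hQ (short_mem τ hτ P.inb hbb (c / a)) ?_
  have := key (c / a) (τ (c / a))
  rwa [div_cancel_two ha0] at this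

theorem k3_ok (hne : ∃ y, τ y ≠ y) (hρ : RhoSt S) (P : KillPre S N S' γ b (rho b)) (hdN : Mem N d) (hdS : Mem S d)
    (hN : ∀ v, Mem Nc v → Mem N v ∧ Ind S' v ∧ Stab (del S' v) (del S' v) b ∧ Stab (del S' v) (del S' v) (rho b))
    (h : k3B S S' γ b d Sc = true) (hQ : Q τ hτ Sc Nc) (hg : St τ hτ S N g) : Good τ hτ g := by
  simp only [k3B, Bool.and_eq_true, beq_iff_eq, bne_iff_ne] at h
  obtain ⟨⟨⟨⟨⟨⟨⟨⟨⟨hbb, hdi⟩, hdi2⟩, hγγ⟩, hd⟩, hd2⟩, hf1⟩, hf2⟩, hf3⟩, rfl⟩ := h
  obtain ⟨c, a, ha0, hc, -, key⟩ := kill_double τ hτ P hρ hdN hdS (indB_ok P.okS' hdi) (indB_ok P.okS' hdi2)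
    (hasB_ok hd) (hasB_ok hd2) (onlyB_ok hf1) (onlyB_ok hf2) (noneB_ok hf3) hg
  obtain ⟨y0, hy0⟩ := trace_one τ hτ hne
  have hcc := fix_crd τ hτ P.okS' P.rhoS' P.gmem P.gind hγγ hg.fix hc
  refine kill_end τ hτ P hg hN hQ (short_mem τ hτ P.inb hbb (c * y0 / a)) ?_
  have := key (c * y0 / a) (τ (c * y0 / a))
  rwa [← map_mul, div_mul_cancel₀ _ ha0, map_mul, hcc, add_assoc, ← mul_add, add_comm (τ y0) y0, hy0, mul_one,
    CharTwo.add_self_eq_zero] at this

/-- The data of a chain of two feeders. -/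
theorem chain_ok (P : KillPre S N S' γ b (rho b)) (hρ : RhoSt S) (hdN : Mem N d) (hdS : Mem S d)
    (h : chainB S S' γ b d m = true) (hg : St τ hτ S N g) :
    rho b ≠ b ∧ ∃ c a, a ≠ 0 ∧ τ c = c ∧ τ a = a ∧
      ∀ x y : K, Crd S' γ (cj b x (cj (rho b) y g)) (c + x * (y * a)) := by
  simp only [chainB, Bool.and_eq_true, beq_iff_eq, bne_iff_ne, Bool.not_eq_true'] at h
  obtain ⟨⟨⟨⟨⟨⟨⟨⟨⟨⟨⟨hbb, hdi⟩, hdd⟩, hγγ⟩, hmS⟩, hmS'⟩, hmi⟩, hd⟩, hm⟩, hf1⟩, hf2⟩, hf3⟩ := h
  obtain ⟨c, a, ha0, hc, ha, key⟩ := kill_chain τ hτ P hdN hdS (indB_ok P.okS hdi)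
    (fun e : S.testBit m = true => by simp [hmS] at e)
    hmS' (indB_ok P.okS' hmi) (hasB_ok hd) (hasB_ok hm) (onlyB_ok hf1) (noneB_ok hf2) (onlyB_ok hf3) hg
  exact ⟨hbb, c, a, ha0, fix_crd τ hτ P.okS' P.rhoS' P.gmem P.gind hγγ hg.fix hc,
    fix_crd τ hτ P.okS hρ hdS (indB_ok P.okS hdi) hdd hg.fix ha, key⟩

theorem k4_ok [Finite K] (hρ : RhoSt S) (P : KillPre S N S' γ b (rho b)) (hdN : Mem N d) (hdS : Mem S d)
    (hN : ∀ v, Mem Nc v → Mem N v ∧ Ind S' v ∧ Stab (del S' v) (del S' v) b ∧ Stab (del S' v) (del S' v) (rho b))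
    (h : chainB S S' γ b d m = true) (hSc : Sc = del (del S' γ) (rho γ)) (hQ : Q τ hτ Sc Nc)
    (hg : St τ hτ S N g) : Good τ hτ g := by
  subst hSc
  obtain ⟨hbb, c, a, ha0, hc, ha, key⟩ := chain_ok τ hτ P hρ hdN hdS h hg
  obtain ⟨x, hx⟩ := sq_root (c / a)
  have hxx : τ x = x := fix_sqrt τ (by rw [hx, map_div₀, hc, ha])
  refine kill_end τ hτ P hg hN hQ (short_mem τ hτ P.inb hbb x) ?_
  have := key x (τ x)
  rw [hxx, ← mul_assoc, hx, div_cancel_two ha0] at this
  rwa [hxx]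

theorem k6_ok [Finite K] (hρ : RhoSt S) (P : KillPre S N S' γ b (rho b)) (hdN : Mem N d) (hdS : Mem S d)
    (hN : ∀ v, Mem Nc v → Mem N v ∧ Ind S' v ∧ Stab (del S' v) (del S' v) b ∧ Stab (del S' v) (del S' v) (rho b))
    (h : chainB S S' γ b d m = true) (h' : k6B S N S' γ b e f Sc = true) (hQ : Q τ hτ Sc Nc)
    (hg : St τ hτ S N g) : Good τ hτ g := by
  obtain ⟨hbb, c, a, ha0, hc, ha, key⟩ := chain_ok τ hτ P hρ hdN hdS h hg
  simp only [k6B, Bool.and_eq_true, beq_iff_eq, Bool.not_eq_true'] at h'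
  obtain ⟨⟨⟨⟨⟨⟨⟨⟨⟨⟨⟨⟨⟨heS, heS'⟩, hei⟩, hee⟩, hfN⟩, hfS⟩, hfi⟩, hfi2⟩, hfe⟩, hfe2⟩, hg1⟩, hg2⟩, hg3⟩, rfl⟩ := h'
  have hei' := indB_ok P.okS' hei
  have P' : KillPre S N S' e b (rho b) := { P with gmem := heS', gind := hei', gind2 := by rw [hee]; exact hei' }
  obtain ⟨c', a', ha'0, hc', -, key'⟩ := kill_double τ hτ P' hρ hfN hfS (indB_ok P.okS' hfi) (indB_ok P.okS' hfi2)
    (hasB_ok hfe) (hasB_ok hfe2) (onlyB_ok hg1) (onlyB_ok hg2) (noneB_ok hg3) hg
  obtain rfl : c' = 0 := crd_uniq P.okS' heS' hei' hc'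
    (crd_absent P.sub (fun he : S.testBit e = true => by simp [heS] at he) hg.mem)
  have hta : τ a' ≠ 0 := fun h0 => ha'0 (τ.injective (h0.trans (map_zero τ).symm))
  obtain ⟨k, hk⟩ := sq_root (c * (a' * τ a') / a)
  have hkk : τ k = k := fix_sqrt τ (by
    rw [hk, map_div₀, map_mul, map_mul, hc, ha, tau_tau τ hτ, mul_comm (τ a')])
  have hh := short_mem τ hτ P.inb hbb (k / a')
  have h0 := key (k / a') (τ (k / a'))
  have hx : k / a' * (τ (k / a') * a) = c := by
    rw [map_div₀, hkk]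
    field_simp
    rw [pow_two, hk]
    field_simp
  rw [hx, CharTwo.add_self_eq_zero] at h0
  have h1 := key' (k / a') (τ (k / a'))
  rw [zero_add, ← map_mul, div_mul_cancel₀ _ ha'0, hkk, CharTwo.add_self_eq_zero] at h1
  refine finish τ hτ hg P.okS P.okS' P.inb P.inb2 (fun z hz => sub_del₂ z (mem_del.mp hz).1) hN hQ hh ?_
  refine Cert.span_mono cert6.{u} ?_ (Cert.span_inf cert6.{u}
    ((P.okS'.delete P.gind).delete (P.gind2.mono fun z hz => (mem_del.mp hz).1)).closedSet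
    (P.okS'.delete hei').closedSet (kill_zero τ hτ P hg.fix hh h0) (crd_zero_iff.mp h1))
  exact fun z hz => mem_del.mpr ⟨hz.1, (mem_del.mp hz.2).2⟩

/-- The relation forced by the square at a long root between two conjugate pairs. -/
theorem k5_ok (hρ : RhoSt S) (P : KillPre S N S' γ b (rho b)) (hdN : Mem N d) (hdS : Mem S d)
    (hN : ∀ v, Mem Nc v → Mem N v ∧ Ind S' v ∧ Stab (del S' v) (del S' v) b ∧ Stab (del S' v) (del S' v) (rho b))
    (h : k5B S S' γ b d e Sc = true) (hQ : Q τ hτ Sc Nc) (hg : St τ hτ S N g) : Good τ hτ g := by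
  simp only [k5B, Bool.and_eq_true, beq_iff_eq, bne_iff_ne] at h
  obtain ⟨⟨⟨⟨⟨⟨⟨⟨⟨⟨⟨⟨⟨⟨⟨⟨⟨⟨⟨⟨⟨⟨⟨⟨⟨⟨hbb, hdi⟩, hdi2⟩, hd2R⟩, hd2S⟩, hd⟩, hf⟩, hγS⟩, hγi⟩, hγd⟩, hγd2⟩, hdd⟩,
    hcomm⟩, hst⟩, hst2⟩, heS⟩, hei⟩, hγ'S⟩, hγ'i⟩, hγ'd⟩, hγ'd2⟩, he1⟩, he2⟩, hg1⟩, hg2⟩, hg3⟩, rfl⟩ := h
  have hdi' := indB_ok P.okS hdi
  have hdi2' := indB_ok P.okS hdi2
  have hγi' := indB_ok P.okS hγi
  have hγ'i' := indB_ok P.okS hγ'i
  obtain ⟨a, ha⟩ := crd_exists P.okS hdS hdi' hg.mem
  obtain ⟨c, hc⟩ := crd_exists P.okS hγS hγi' hg.mem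
  have ha0 := crd_ne_zero τ hτ hg hdN ha
  have ha' := crd_sig τ hτ P.okS hρ (P.okS.range d hdS) hdi' hg.fix ha
  have hc' := crd_sig τ hτ P.okS hρ (P.okS.range γ hγS) hγi' hg.fix hc
  have hS1 := P.okS.delete hdi'
  have hm : ∀ {z}, Mem (del S d) z → Mem S z := fun hz => (mem_del.mp hz).1
  have b1 := peel P.okS hdS hdi' hd2S hdi2' hdd ha ha'
  have b2 := peel P.okS hdS hdi' hγS hγi' hγd ha hc
  have b3 := peel P.okS hdS hdi' hγ'S hγ'i' hγ'd ha hc'
  set k1 := (cert6.{u}.xu d a)⁻¹ * g with hk1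
  have d2mem : Mem (del S d) (rho d) := mem_del.mpr ⟨hd2S, hdd⟩
  have d2ind : Ind (del S d) (rho d) := hdi2'.mono fun _ hz => hm hz
  have c2 := peel hS1 d2mem d2ind (mem_del.mpr ⟨hγS, hγd⟩) (hγi'.mono fun _ hz => hm hz) hγd2 b1 b2
  have c3 := peel hS1 d2mem d2ind (mem_del.mpr ⟨hγ'S, hγ'd⟩) (hγ'i'.mono fun _ hz => hm hz) hγ'd2 b1 b3
  set k := (cert6.{u}.xu (rho d) (τ a))⁻¹ * k1 with hk
  have hkmem : k ∈ spn K (del (del S d) (rho d)) := b1
  set S2 := del (del S d) (rho d) with hS2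
  have hOk : Ok S2 := hS1.delete d2ind
  have hm2 : ∀ z, Mem S2 z → Mem S z := fun z hz => sub_del₂ z hz
  have hei' := indB_ok hOk hei
  have m2 : Mem S2 γ := mem_del.mpr ⟨mem_del.mpr ⟨hγS, hγd⟩, hγd2⟩
  have m3 : Mem S2 (rho γ) := mem_del.mpr ⟨mem_del.mpr ⟨hγ'S, hγ'd⟩, hγ'd2⟩
  obtain ⟨z, hz⟩ := crd_exists hOk heS hei' hkmem
  have hdR := P.okS.range d hdS
  have hd2R' := inB_ok hd2R
  have s1 := cj_crd hd2R' hOk hOk (fun _ h => h) (stabB_ok hst2) heS hei' m2 (hγi'.mono hm2) (hasB_ok he2)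
    (onlyB_ok hg2) hkmem (τ a) hz c2
  have s2 := cj_crd_none hd2R' hOk hOk (fun _ h => h) (stabB_ok hst2) m3 (hγ'i'.mono hm2)
    (noneB_ok hg3) hkmem (τ a) c3
  have s3 := cj_crd hdR hOk hOk (fun _ h => h) (stabB_ok hst) heS hei' m3 (hγ'i'.mono hm2) (hasB_ok he1)
    (onlyB_ok hg1) (cj_mem hd2R' hOk (fun _ h => h) (stabB_ok hst2) hkmem (τ a)) a s1 s2
  have s4 := crd_mul hOk heS hei' s3 hz
  have hone : cj d a (cj (rho d) (τ a) k) * k = 1 := by
    have hgk : g = cert6.{u}.xu d a * cert6.{u}.xu (rho d) (τ a) * k := by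
      rw [hk, hk1, mul_assoc, mul_inv_cancel_left, mul_inv_cancel_left]
    have hcm : Commute (cert6.{u}.xu d a) (cert6.{u}.xu (rho d) (τ a)) := by
      rcases conj_pair hdR hd2R' a (τ a) with ⟨-, e'⟩ | ⟨v, hv, -, -⟩
      · exact mul_inv_eq_iff_eq_mul.mp e'
      · exact absurd rfl (bne_iff_ne.mp (List.all_eq_true.mp hcomm _ hv))
    rw [cj_comp, mul_inv_rev, xu_self, xu_self, ← hcm.eq]
    have h := hg.sq
    rw [hgk] at h
    rw [← h]; group
  rw [hone] at s4
  have h3 := crd_uniq hOk heS hei' s4 crd_one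
  rw [show z + τ a * c + a * τ c + z = τ a * c + a * τ c by
    rw [add_assoc z, add_right_comm, CharTwo.add_self_eq_zero, zero_add], CharTwo.add_eq_zero] at h3
  have hta : τ a ≠ 0 := fun h0 => ha0 (τ.injective (h0.trans (map_zero τ).symm))
  have hx : τ (c / a) = c / a := by
    rw [map_div₀, div_eq_div_iff hta ha0, mul_comm (τ c), ← h3, mul_comm]
  refine kill_end τ hτ P hg hN hQ (x := c / a) (y := 0)
    (by rw [Cert.xu_zero, mul_one]; exact long_mem τ hτ P.inb hbb hx) ?_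
  rw [cj_zero]
  have := cj_crd P.inb P.okS P.okS' P.sub (hbb ▸ P.st2) P.gmem P.gind hdS hdi' (hasB_ok hd) (onlyB_ok hf)
    hg.mem (c / a) (crd_mono P.sub hc) ha
  rwa [div_cancel_two ha0] at this

end kills

theorem kill_ok [Finite K] (hne : ∃ y, τ y ≠ y) {kind γ m e f Sc Nc : ℕ} (hS : Ok S) (hρ : RhoSt S)
    (hNS : ∀ v, Mem N v → Mem S v) (h : killB S N kind S' γ b d m e f Sc Nc = true)
    (hQ : Q τ hτ Sc Nc) : Q τ hτ S N := by
  intro g hg
  unfold killB at h
  simp only [Bool.and_eq_true, Bool.or_eq_true] at h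
  obtain ⟨hp, hk⟩ := h
  obtain ⟨P, hdN, hdS, hN⟩ := pre_ok hS hNS hp
  rcases hk with ((((h | h) | h) | h) | h) | h
  · exact k1_ok τ hτ hρ P hdN hdS hN h.2 hQ hg
  · exact k2_ok τ hτ P hdN hdS hN h.2 hQ hg
  · exact k3_ok τ hτ hne hρ P hdN hdS hN h.2 hQ hg
  · exact k4_ok τ hτ hρ P hdN hdS hN h.2.1 (beq_iff_eq.mp h.2.2) hQ hg
  · exact k5_ok τ hτ hρ P hdN hdS hN h.2 hQ hg
  · exact k6_ok τ hτ hρ P hdN hdS hN h.2.1 h.2.2 hQ hg

theorem cert_ok [Finite K] (hne : ∃ y, τ y ≠ y) : ∀ (l : List Node), certB l = true →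
    ∀ n ∈ l, Q τ hτ n.1 n.2.1 := by
  intro l
  induction l with
  | nil => simp
  | cons n rest ih =>
    obtain ⟨S, N, s⟩ := n
    intro h
    simp only [certB, Bool.and_eq_true] at h
    obtain ⟨⟨⟨⟨hokS, hrho⟩, hsub⟩, hstep⟩, hrest⟩ := h
    have hS := okB_ok hokS
    have hρ := rhoB_ok hS hrho
    have hNS := subB_ok hsub
    have child : ∀ {i : ℕ} {x : Node}, rest[i]? = some x → Q τ hτ x.1 x.2.1 := fun hx =>
      ih hrest _ (List.mem_of_getElem? hx)
    suffices Q τ hτ S N by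
      intro n hn
      rcases List.mem_cons.mp hn with rfl | hn
      exacts [this, ih hrest n hn]
    match s with
    | .leaf =>
      simp only [stepB, Bool.and_eq_true, beq_iff_eq] at hstep
      rw [hstep.2]
      exact leaf_ok τ hτ (List.contains_iff_mem.mp hstep.1)
    | .contra u' w c =>
      simp only [stepB, Bool.and_eq_true, bne_iff_ne] at hstep
      obtain ⟨⟨⟨⟨⟨⟨⟨⟨⟨⟨⟨h1, h2⟩, h3⟩, h4⟩, h5⟩, h6⟩, h7⟩, h8⟩, h9⟩, h10⟩, h11⟩, h12⟩ := hstep
      exact contra_ok τ hτ hS h1 h2 h3 h4 (indB_ok hS h5) (indB_ok hS h6) h7 (stabB_ok h8) h9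
        (indB_ok (hS.delete (indB_ok hS h5)) h10) (hasB_ok h11) (onlyB_ok h12)
    | .split r i j =>
      simp only [stepB] at hstep
      split at hstep
      · rename_i S1 N1 s1 S2 N2 s2 e1 e2
        simp only [Bool.and_eq_true, beq_iff_eq] at hstep
        obtain ⟨⟨⟨⟨⟨⟨⟨h1, h2⟩, h3⟩, rfl⟩, h5⟩, rfl⟩, h7⟩, h8⟩ := hstep
        refine split_ok τ hτ hS hρ h1 (indB_ok hS h2) (indB_ok hS h3) (subB_ok h5) (fun v hv => ?_) (child e1) (child e2)
        have := allR_ok h7 (hS.range v (subB_ok h8 v hv))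
        simpa [show N2.testBit v = true from hv, or_assoc] using this
      · simp at hstep
    | .move L i =>
      simp only [stepB] at hstep
      split at hstep
      · rename_i T Nc s1 e1
        simp only [Bool.and_eq_true, List.all_eq_true, decide_eq_true_eq] at hstep
        obtain ⟨⟨⟨⟨⟨h1, h2⟩, h3⟩, h4⟩, h5⟩, h6⟩ := hstep
        have hT := okB_ok h2
        refine move_ok τ hτ hS h1 hT (subB_ok h3) (fun r hr => ?_) (fun r hr => ?_) (fun r hr => ?_) (child e1)
        · simpa [show S.testBit r = true from hr] using allR_ok h4 (hS.range r hr)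
        · simpa [show T.testBit r = true from hr] using allR_ok h5 (hT.range r hr)
        · simpa [show Nc.testBit r = true from hr] using allR_ok h6 (hT.range r (subB_ok h3 r hr))
      · simp at hstep
    | .kill kind S' γ b d m e f i =>
      simp only [stepB] at hstep
      split at hstep
      · rename_i Sc Nc s1 e1
        exact kill_ok τ hτ hne hS hρ hNS hstep (child e1)
      · simp at hstep

end Cfsg.Agent.E6Two
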