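import Cfsg.Agent.Chars2.E6Two.Table

/-! Coordinates at indecomposable roots of a closed set of positive roots. -/

set_option autoImplicit false

universe u

namespace Cfsg.Agent.E6Two

open Cfsg.Lie Cfsg.Agent.Chev
open scoped Matrix MatrixGroups

variable {K : Type u} [Field K] [CharP K 2]

/-- The certificate of the E6 tables. -/
noncomputable abbrev cert6 : Cert.{u} chevE6 := AllOK.cert.{u} allOKE6

/-- Membership of a root in a mask. -/
abbrev Mem (S r : ℕ) : Prop := S.testBit r = true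

/-- The group of a mask. -/
abbrev spn (K : Type u) [Field K] (S : ℕ) : Subgroup (GL chevE6.Idx K) := spanGroup chevE6 K (Mem S)

/-- Removal of a root from a mask. -/
def del (S r : ℕ) : ℕ := if S.testBit r then S ^^^ 2 ^ r else S

omit [CharP K 2] in
theorem mem_del {S r x : ℕ} : Mem (del S r) x ↔ Mem S x ∧ x ≠ r := by
  unfold del Mem
  by_cases h : S.testBit r = true
  · rw [if_pos h, Nat.testBit_xor, Nat.testBit_two_pow]
    by_cases hx : x = r
    · subst hx; simp [h]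
    · simp [hx, Ne.symm hx]
  · rw [if_neg h]
    exact ⟨fun hx => ⟨hx, fun e => h (e ▸ hx)⟩, fun hx => hx.1⟩

/-- A root in the positive range. -/
abbrev InR (r : ℕ) : Prop := 36 ≤ r ∧ r < 72

/-- The mask consists of positive roots, is closed and stable. -/
structure Ok (S : ℕ) : Prop where
  range : ∀ r, Mem S r → InR r
  closed : ∀ a, Mem S a → ∀ p ∈ addTo a, Mem S p.1 → Mem S p.2

/-- The root is not a sum of two roots of the mask. -/
def Ind (S c : ℕ) : Prop := ∀ a, Mem S a → ∀ p ∈ addTo a, Mem S p.1 → p.2 ≠ c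

/-- Roots of `S` are sent into `T` by `b`. -/
def Stab (S T b : ℕ) : Prop := ∀ p ∈ addTo b, Mem S p.1 → Mem T p.2

omit [CharP K 2] in
theorem lt_nroots {r : ℕ} (hr : InR r) : r < chevE6.nroots := nroots_eq.symm ▸ hr.2

omit [CharP K 2] in
theorem posRoot {r : ℕ} (hr : InR r) : chevE6.IsPosRoot r := (pos_iff r hr.2).mpr hr.1

omit [CharP K 2] in
theorem addTo_inR {a : ℕ} (ha : InR a) {p : ℕ × ℕ} (hp : p ∈ addTo a) : InR p.1 ∧ InR p.2 := by
  obtain ⟨i, rfl⟩ : ∃ i, a = i + 36 := ⟨a - 36, by have := ha.1; omega⟩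
  obtain ⟨h1, h2, h3, h4⟩ := addTo_range i (by have := ha.2; omega) p hp
  exact ⟨⟨h1, h2⟩, h3, h4⟩

omit [CharP K 2] in
theorem terms_cases {a b : ℕ} (ha : InR a) (hb : InR b) :
    (chevE6.commTerms a b = [] ∧ ∀ p ∈ addTo a, p.1 ≠ b) ∨
      ∃ c z, chevE6.commTerms a b = [(c, z, 1, 1)] ∧ z.natAbs % 2 = 1 ∧ (b, c) ∈ addTo a ∧
        ∀ p ∈ addTo a, p.1 = b → p.2 = c := by
  obtain ⟨i, rfl⟩ : ∃ i, a = i + 36 := ⟨a - 36, by have := ha.1; omega⟩
  obtain ⟨j, rfl⟩ : ∃ j, b = j + 36 := ⟨b - 36, by have := hb.1; omega⟩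
  have h := termOK_all i (by have := ha.2; omega) j (by have := hb.2; omega)
  unfold termOK at h
  split at h
  · rename_i e
    refine Or.inl ⟨e, fun p hp hpe => ?_⟩
    rw [List.isEmpty_iff, List.filter_eq_nil_iff] at h
    exact h p hp (by simpa using hpe)
  · rename_i c z e
    simp only [Bool.and_eq_true, beq_iff_eq] at h
    refine Or.inr ⟨c, z, e, h.2, ?_, fun p hp hpe => ?_⟩
    · have : (j + 36, c) ∈ (addTo (i + 36)).filter fun p => p.1 == j + 36 := by rw [h.1]; simp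
      exact (List.mem_filter.mp this).1
    · have : p ∈ (addTo (i + 36)).filter fun p => p.1 == j + 36 :=
        List.mem_filter.mpr ⟨hp, by simpa using hpe⟩
      rw [h.1, List.mem_singleton] at this
      rw [this]
  · exact absurd h (by simp)

omit [CharP K 2] in
theorem Ok.closedSet {S : ℕ} (h : Ok S) : ClosedSet chevE6 (Mem S) := by
  refine ⟨fun r hr => posRoot (h.range r hr), fun a b ha hb c hc => ?_⟩
  rcases terms_cases (h.range a ha) (h.range b hb) with ⟨e, -⟩ | ⟨c', z, e, -, hm, -⟩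
  · rw [e] at hc; simp at hc
  · rw [e, List.mem_singleton] at hc
    subst hc
    exact h.closed a ha _ hm hb

omit [CharP K 2] in
theorem Ok.delete {S r : ℕ} (h : Ok S) (hi : Ind S r) : Ok (del S r) :=
  ⟨fun x hx => h.range x (mem_del.mp hx).1, fun a ha p hp hp1 =>
    mem_del.mpr ⟨h.closed a (mem_del.mp ha).1 p hp (mem_del.mp hp1).1,
      hi a (mem_del.mp ha).1 p hp (mem_del.mp hp1).1⟩⟩

omit [CharP K 2] in
theorem Ind.mono {S T r : ℕ} (h : Ind T r) (hs : ∀ x, Mem S x → Mem T x) : Ind S r :=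
  fun a ha p hp hp1 => h a (hs a ha) p hp (hs _ hp1)

theorem xu_self (r : ℕ) (t : K) : (cert6.{u}.xu r t)⁻¹ = cert6.{u}.xu r t := by rw [Cert.xu_inv, CharTwo.neg_eq]

/-- Conjugation of a root element by another one. -/
theorem conj_pair {a b : ℕ} (ha : InR a) (hb : InR b) (x t : K) :
    ((∀ p ∈ addTo a, p.1 ≠ b) ∧ cert6.{u}.xu a x * cert6.{u}.xu b t * (cert6.{u}.xu a x)⁻¹ = cert6.{u}.xu b t) ∨
      ∃ c, (b, c) ∈ addTo a ∧ (∀ p ∈ addTo a, p.1 = b → p.2 = c) ∧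
        cert6.{u}.xu a x * cert6.{u}.xu b t * (cert6.{u}.xu a x)⁻¹ = cert6.{u}.xu b t * cert6.{u}.xu c (x * t) := by
  by_cases e : b = a
  · subst e
    left
    refine ⟨fun p hp hpe => ?_, by rw [xu_self, Cert.xu_add, Cert.xu_add]; congr 1; rw [add_right_comm, CharTwo.add_self_eq_zero, zero_add]⟩
    rcases terms_cases ha ha with ⟨-, h⟩ | ⟨c, z, h, -, -, -⟩
    · exact h p hp hpe
    · have := commTerms_eq_nil (Cert.chain_self cert6.{u} _ (lt_nroots ha)) (Cert.chain_self cert6.{u} _ (lt_nroots ha))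
      rw [h] at this; simp at this
  have hneg : b ≠ chevE6.neg a := fun e' =>
    Cert.not_pos_and_neg cert6.{u} (posRoot hb) (e' ▸ Cert.negRoot_neg cert6.{u} (posRoot ha))
  have hc := Cert.conj_xu cert6.{u} (lt_nroots ha) (lt_nroots hb) e hneg x t
  rcases terms_cases ha hb with ⟨h, h'⟩ | ⟨c, z, h, hz, hm, hu⟩
  · left
    refine ⟨h', ?_⟩
    rw [hc, ChevalleyDatum.commWord, h]
    simp [Cert.wu]
  · right
    refine ⟨c, hm, hu, ?_⟩
    rw [hc, ChevalleyDatum.commWord, h]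
    have hz' : ((z : ℤ) : K) = 1 := by
      obtain ⟨k, hk⟩ : Odd z := Int.natAbs_odd.mp (Nat.odd_iff.mpr hz)
      rw [hk]; push_cast; rw [CharTwo.two_eq_zero]; ring
    simp [Cert.wu, hz', CharTwo.neg_eq]

omit [CharP K 2] in
theorem span_mono {S T : ℕ} (h : ∀ x, Mem S x → Mem T x) : spn K S ≤ spn K T := Cert.span_mono cert6.{u} h

/-- The element has coordinate `c` at the root. -/
def Crd (S r : ℕ) (g : GL chevE6.Idx K) (c : K) : Prop := (cert6.{u}.xu r c)⁻¹ * g ∈ spn K (del S r)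

/-- Root elements of an indecomposable root normalise the rest. -/
theorem xu_normal {S r : ℕ} (hS : Ok S) (hr : InR r) (hm : Mem S r) (hi : Ind S r) (v : K) :
    ∀ g ∈ spn K (del S r), cert6.{u}.xu r v * g * (cert6.{u}.xu r v)⁻¹ ∈ spn K (del S r) := by
  intro g hg
  induction hg using Subgroup.closure_induction with
  | mem w hw =>
    obtain ⟨s, t, hs, hw⟩ := hw
    rw [(Cert.eq_xu cert6.{u}).mp hw]
    rcases conj_pair hr (hS.range s (mem_del.mp hs).1) v t with ⟨-, e⟩ | ⟨c, hc, -, e⟩ <;> rw [e]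
    · exact Cert.xu_mem_span cert6.{u} hs _
    · refine mul_mem (Cert.xu_mem_span cert6.{u} hs _) (Cert.xu_mem_span cert6.{u} ?_ _)
      have h1 := (mem_del.mp hs).1
      exact mem_del.mpr ⟨hS.closed r hm _ hc h1, hi r hm _ hc h1⟩
  | one => simp
  | mul p q _ _ hp hq =>
    rw [show cert6.{u}.xu r v * (p * q) * (cert6.{u}.xu r v)⁻¹ = (cert6.{u}.xu r v * p * (cert6.{u}.xu r v)⁻¹) * (cert6.{u}.xu r v * q * (cert6.{u}.xu r v)⁻¹) by group]
    exact mul_mem hp hq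
  | inv p _ hp =>
    rw [show cert6.{u}.xu r v * p⁻¹ * (cert6.{u}.xu r v)⁻¹ = (cert6.{u}.xu r v * p * (cert6.{u}.xu r v)⁻¹)⁻¹ by group]
    exact inv_mem hp

section crd

variable {S r : ℕ}

theorem crd_one : Crd S r (1 : GL chevE6.Idx K) 0 := by
  unfold Crd; rw [Cert.xu_zero, inv_one, one_mul]; exact one_mem _

theorem crd_zero_iff {g : GL chevE6.Idx K} : Crd S r g 0 ↔ g ∈ spn K (del S r) := by
  unfold Crd; rw [Cert.xu_zero, inv_one, one_mul]

theorem crd_self (t : K) : Crd S r (cert6.{u}.xu r t) t := by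
  unfold Crd; rw [inv_mul_cancel]; exact one_mem _

theorem crd_other {s : ℕ} (hs : Mem S s) (hne : s ≠ r) (t : K) : Crd S r (cert6.{u}.xu s t) 0 :=
  crd_zero_iff.mpr (Cert.xu_mem_span cert6.{u} (mem_del.mpr ⟨hs, hne⟩) t)

theorem crd_mul (hS : Ok S) (hm : Mem S r) (hi : Ind S r) {g h : GL chevE6.Idx K} {a b : K}
    (hg : Crd S r g a) (hh : Crd S r h b) : Crd S r (g * h) (a + b) := by
  unfold Crd at *
  have e : (cert6.{u}.xu r (a + b))⁻¹ * (g * h) =
      (cert6.{u}.xu r b * ((cert6.{u}.xu r a)⁻¹ * g) * (cert6.{u}.xu r b)⁻¹) * ((cert6.{u}.xu r b)⁻¹ * h) := by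
    have e1 : (cert6.{u}.xu r (a + b))⁻¹ = cert6.{u}.xu r b * (cert6.{u}.xu r a)⁻¹ := by
      rw [xu_self, xu_self, Cert.xu_add, add_comm]
    have e2 : (cert6.{u}.xu r b)⁻¹ * (cert6.{u}.xu r b)⁻¹ = (1 : GL chevE6.Idx K) := by
      rw [← mul_inv_rev, Cert.xu_add, CharTwo.add_self_eq_zero, Cert.xu_zero, inv_one]
    rw [e1]
    calc cert6.{u}.xu r b * (cert6.{u}.xu r a)⁻¹ * (g * h) = cert6.{u}.xu r b * ((cert6.{u}.xu r a)⁻¹ * g) * 1 * h := by group
      _ = _ := by rw [← e2]; group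
  rw [e]
  exact mul_mem (xu_normal hS (hS.range r hm) hm hi b _ hg) hh

theorem crd_inv (hS : Ok S) (hm : Mem S r) (hi : Ind S r) {g : GL chevE6.Idx K} {a : K}
    (hg : Crd S r g a) : Crd S r g⁻¹ a := by
  unfold Crd at *
  have e : (cert6.{u}.xu r a)⁻¹ * g⁻¹ = cert6.{u}.xu r a * ((cert6.{u}.xu r a)⁻¹ * g)⁻¹ * (cert6.{u}.xu r a)⁻¹ := by
    have h2 : (cert6.{u}.xu r a)⁻¹ = cert6.{u}.xu r a := xu_self r a
    rw [mul_inv_rev, inv_inv]
    calc (cert6.{u}.xu r a)⁻¹ * g⁻¹ = cert6.{u}.xu r a * g⁻¹ * 1 := by rw [h2, mul_one]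
      _ = _ := by rw [← mul_inv_cancel (cert6.{u}.xu r a)]; group
  rw [e]
  exact xu_normal hS (hS.range r hm) hm hi a _ (inv_mem hg)

theorem crd_exists (hS : Ok S) (hm : Mem S r) (hi : Ind S r) {g : GL chevE6.Idx K} (hg : g ∈ spn K S) :
    ∃ c, Crd S r g c := by
  induction hg using Subgroup.closure_induction with
  | mem w hw =>
    obtain ⟨s, t, hs, hw⟩ := hw
    rw [(Cert.eq_xu cert6.{u}).mp hw]
    by_cases e : s = r
    · exact ⟨t, e ▸ crd_self t⟩
    · exact ⟨0, crd_other hs e t⟩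
  | one => exact ⟨0, crd_one⟩
  | mul p q _ _ hp hq =>
    obtain ⟨a, ha⟩ := hp; obtain ⟨b, hb⟩ := hq
    exact ⟨a + b, crd_mul hS hm hi ha hb⟩
  | inv p _ hp => obtain ⟨a, ha⟩ := hp; exact ⟨a, crd_inv hS hm hi ha⟩

omit [CharP K 2] in
theorem closed_single {r : ℕ} (hr : InR r) : ClosedSet chevE6 (fun s => s = r) := by
  refine ⟨fun s hs => hs ▸ posRoot hr, fun a b ha hb c hc => ?_⟩
  subst ha hb
  rw [commTerms_eq_nil (Cert.chain_self cert6.{0} _ (lt_nroots hr)) (Cert.chain_self cert6.{0} _ (lt_nroots hr))] at hc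
  simp at hc

theorem crd_uniq (hS : Ok S) (hm : Mem S r) (hi : Ind S r) {g : GL chevE6.Idx K} {a b : K}
    (ha : Crd S r g a) (hb : Crd S r g b) : a = b := by
  have h : cert6.{u}.xu r (a + b) ∈ spn K (del S r) := by
    have := mul_mem ha (inv_mem hb)
    rw [show (cert6.{u}.xu r a)⁻¹ * g * ((cert6.{u}.xu r b)⁻¹ * g)⁻¹ = (cert6.{u}.xu r a)⁻¹ * cert6.{u}.xu r b by group, xu_self, Cert.xu_add] at this
    exact this
  have h2 := Cert.span_inf cert6.{u} (hS.delete hi).closedSet (closed_single (hS.range r hm)) h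
    (Cert.xu_mem_span cert6.{u} (P := fun s => s = r) rfl _)
  rw [Cert.span_empty cert6.{u} fun s hs => (mem_del.mp hs.1).2 hs.2, Subgroup.mem_bot] at h2
  have := Cert.xu_eq_one cert6.{u} (lt_nroots (hS.range r hm)) h2
  exact CharTwo.add_eq_zero.mp this

omit [CharP K 2] in
theorem crd_mono {T : ℕ} (h : ∀ x, Mem S x → Mem T x) {g : GL chevE6.Idx K} {a : K}
    (ha : Crd S r g a) : Crd T r g a :=
  span_mono (fun x hx => mem_del.mpr ⟨h x (mem_del.mp hx).1, (mem_del.mp hx).2⟩) ha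

theorem crd_absent {T : ℕ} (h : ∀ x, Mem S x → Mem T x) (hr : ¬ Mem S r) {g : GL chevE6.Idx K}
    (hg : g ∈ spn K S) : Crd T r g 0 :=
  crd_zero_iff.mpr (span_mono (fun x hx => mem_del.mpr ⟨h x hx, fun (e : x = r) => hr (e ▸ hx)⟩) hg)

end crd

/-- Conjugation by a root element. -/
noncomputable def cj (b : ℕ) (x : K) (g : GL chevE6.Idx K) : GL chevE6.Idx K := cert6.{u}.xu b x * g * (cert6.{u}.xu b x)⁻¹

omit [CharP K 2] in
theorem cj_mul (b : ℕ) (x : K) (g h : GL chevE6.Idx K) : cj b x (g * h) = cj b x g * cj b x h := by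
  unfold cj; group

omit [CharP K 2] in
theorem cj_inv (b : ℕ) (x : K) (g : GL chevE6.Idx K) : cj b x g⁻¹ = (cj b x g)⁻¹ := by
  unfold cj; group

theorem cj_mem {S T b : ℕ} (hb : InR b) (hS : Ok S) (hsub : ∀ x, Mem S x → Mem T x) (hst : Stab S T b)
    {g : GL chevE6.Idx K} (hg : g ∈ spn K S) (x : K) : cj b x g ∈ spn K T := by
  induction hg using Subgroup.closure_induction with
  | mem w hw =>
    obtain ⟨s, t, hs, hw⟩ := hw
    rw [(Cert.eq_xu cert6.{u}).mp hw]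
    show cert6.{u}.xu b x * cert6.{u}.xu s t * (cert6.{u}.xu b x)⁻¹ ∈ spn K T
    rcases conj_pair hb (hS.range s hs) x t with ⟨-, e⟩ | ⟨c, hc, -, e⟩ <;> rw [e]
    · exact Cert.xu_mem_span cert6.{u} (hsub s hs) _
    · exact mul_mem (Cert.xu_mem_span cert6.{u} (hsub s hs) _) (Cert.xu_mem_span cert6.{u} (hst _ hc hs) _)
  | one => simp [cj]
  | mul p q _ _ hp hq => rw [cj_mul]; exact mul_mem hp hq
  | inv p _ hp => rw [cj_inv]; exact inv_mem hp

/-- The coordinate at `r` after conjugation by `b`, when only `d` feeds `r`. -/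
theorem cj_crd {S T b r d : ℕ} (hb : InR b) (hS : Ok S) (hT : Ok T) (hsub : ∀ x, Mem S x → Mem T x)
    (hst : Stab S T b) (hrT : Mem T r) (hiT : Ind T r) (hdS : Mem S d) (hd : Ind S d)
    (hdr : (d, r) ∈ addTo b) (hf : ∀ p ∈ addTo b, Mem S p.1 → p.2 = r → p.1 = d)
    {g : GL chevE6.Idx K} (hg : g ∈ spn K S) (x : K) {c e : K} (hc : Crd T r g c) (he : Crd S d g e) :
    Crd T r (cj b x g) (c + x * e) := by
  suffices h : ∃ c e, Crd T r g c ∧ Crd S d g e ∧ Crd T r (cj b x g) (c + x * e) by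
    obtain ⟨c', e', h1, h2, h3⟩ := h
    rwa [crd_uniq hT hrT hiT hc h1, crd_uniq hS hdS hd he h2]
  clear hc he
  induction hg using Subgroup.closure_induction with
  | mem w hw =>
    obtain ⟨s, t, hs, hw⟩ := hw
    rw [(Cert.eq_xu cert6.{u}).mp hw]
    have hsum : ∀ {v : ℕ}, (s, v) ∈ addTo b → Mem T v := fun hv => hst _ hv hs
    obtain ⟨k, hk⟩ : ∃ k, Crd T r (cert6.{u}.xu s t) k := crd_exists hT hrT hiT (Cert.xu_mem_span cert6.{u} (hsub s hs) t)
    obtain ⟨l, hl⟩ : ∃ l, Crd S d (cert6.{u}.xu s t) l := crd_exists hS hdS hd (Cert.xu_mem_span cert6.{u} hs t)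
    refine ⟨k, l, hk, hl, ?_⟩
    show Crd T r (cert6.{u}.xu b x * cert6.{u}.xu s t * (cert6.{u}.xu b x)⁻¹) _
    rcases conj_pair hb (hS.range s hs) x t with ⟨hno, e⟩ | ⟨v, hv, huniq, e⟩ <;> rw [e]
    · have hsd : s ≠ d := fun h => hno _ hdr h.symm
      rw [crd_uniq hS hdS hd hl (crd_other hs hsd t), mul_zero, add_zero]
      exact hk
    · refine crd_mul hT hrT hiT hk ?_
      by_cases hvr : v = r
      · subst hvr
        have hsd : s = d := hf _ hv hs rfl
        subst hsd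
        rw [crd_uniq hS hdS hd hl (crd_self t)]
        exact crd_self _
      · have hsd : s ≠ d := fun h => hvr (huniq (d, r) hdr h.symm).symm
        rw [crd_uniq hS hdS hd hl (crd_other hs hsd t), mul_zero]
        exact crd_other (hsum hv) hvr _
  | one => exact ⟨0, 0, crd_one, crd_one, by simpa [cj] using crd_one⟩
  | mul p q _ _ hp hq =>
    obtain ⟨c, e, h1, h2, h3⟩ := hp; obtain ⟨c', e', h1', h2', h3'⟩ := hq
    refine ⟨c + c', e + e', crd_mul hT hrT hiT h1 h1', crd_mul hS hdS hd h2 h2', ?_⟩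
    rw [cj_mul, show c + c' + x * (e + e') = (c + x * e) + (c' + x * e') by ring]
    exact crd_mul hT hrT hiT h3 h3'
  | inv p _ hp =>
    obtain ⟨c, e, h1, h2, h3⟩ := hp
    exact ⟨c, e, crd_inv hT hrT hiT h1, crd_inv hS hdS hd h2, by rw [cj_inv]; exact crd_inv hT hrT hiT h3⟩

/-- The coordinate at `r` after conjugation by `b`, when nothing feeds `r`. -/
theorem cj_crd_none {S T b r : ℕ} (hb : InR b) (hS : Ok S) (hT : Ok T) (hsub : ∀ x, Mem S x → Mem T x)
    (hst : Stab S T b) (hrT : Mem T r) (hiT : Ind T r) (hf : ∀ p ∈ addTo b, Mem S p.1 → p.2 ≠ r)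
    {g : GL chevE6.Idx K} (hg : g ∈ spn K S) (x : K) {c : K} (hc : Crd T r g c) :
    Crd T r (cj b x g) c := by
  suffices h : ∃ c, Crd T r g c ∧ Crd T r (cj b x g) c by
    obtain ⟨c', h1, h3⟩ := h
    rwa [crd_uniq hT hrT hiT hc h1]
  clear hc
  induction hg using Subgroup.closure_induction with
  | mem w hw =>
    obtain ⟨s, t, hs, hw⟩ := hw
    rw [(Cert.eq_xu cert6.{u}).mp hw]
    obtain ⟨k, hk⟩ : ∃ k, Crd T r (cert6.{u}.xu s t) k := crd_exists hT hrT hiT (Cert.xu_mem_span cert6.{u} (hsub s hs) t)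
    refine ⟨k, hk, ?_⟩
    show Crd T r (cert6.{u}.xu b x * cert6.{u}.xu s t * (cert6.{u}.xu b x)⁻¹) _
    rcases conj_pair hb (hS.range s hs) x t with ⟨-, e⟩ | ⟨v, hv, -, e⟩ <;> rw [e]
    · exact hk
    · have := crd_mul hT hrT hiT hk (crd_other (hst _ hv hs) (hf _ hv hs) (x * t))
      rwa [add_zero] at this
  | one => exact ⟨0, crd_one, by simpa [cj] using crd_one⟩
  | mul p q _ _ hp hq =>
    obtain ⟨c, h1, h3⟩ := hp; obtain ⟨c', h1', h3'⟩ := hq
    exact ⟨c + c', crd_mul hT hrT hiT h1 h1', by rw [cj_mul]; exact crd_mul hT hrT hiT h3 h3'⟩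
  | inv p _ hp =>
    obtain ⟨c, h1, h3⟩ := hp
    exact ⟨c, crd_inv hT hrT hiT h1, by rw [cj_inv]; exact crd_inv hT hrT hiT h3⟩

end Cfsg.Agent.E6Two
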