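import Cfsg.Agent.Chars2.E6Two.Moves
import Cfsg.Agent.LeadWork.E6Fold

/-! The three representatives are separated by the rank of their displacement. -/

set_option autoImplicit false
set_option maxRecDepth 100000

universe u

namespace Cfsg.Agent.E6Two

open Cfsg.Lie Cfsg.Agent.Chev
open Cfsg.Agent.LeadWork.E6Fold (code code_lt code_injective bv ev ev_nil ev_cons runL okRun ev_run)
open scoped Matrix MatrixGroups

/-- displacement columns -/
def colsL : List ℕ := [0, 35184372088832, 35184372088832, 0, 35184372088832, 0, 0, 256, 0, 0, 0, 0, 16384, 32768, 0, 0, 0, 0, 0, 1048576, 0, 0, 0, 33554432, 67108864, 0, 0, 0, 0, 0, 2147483648, 0, 0, 0, 34359738368, 0, 549755813888, 1099511627776, 35184372088840, 0, 0, 0, 0, 70368744177664, 140737488355328, 0, 0, 0, 562949953421312, 0, 0, 0, 9007199254740992, 0, 0, 0, 0, 576460752303423488, 1152921504606846976, 0, 0, 0, 0, 18446744073709551616, 0, 0, 0, 0, 1180591620717411303424, 2361183241434822606848, 0, 0, 0, 0, 0, 75557863725914323419136, 0, 0]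

/-- displacement columns -/
def colsS : List ℕ := [0, 0, 4611686018427387904, 0, 4398046511104, 0, 0, 0, 0, 1024, 0, 4194304, 25174016, 16777216, 100696064, 67108864, 134217728, 12885164032, 8589934592, 17179869184, 34359738368, 4611686018427387905, 0, 16777216, 0, 67108864, 0, 0, 536870912, 0, 0, 0, 8589934592, 0, 0, 0, 137438953472, 0, 0, 1099511627776, 0, 4398046511136, 0, 17592186044416, 0, 0, 140737488355328, 0, 9223372036854775808, 18446744073709551616, 110682716242070994944, 73786976294838206464, 0, 0, 36028797018963968, 0, 147573952589676412928, 885731945914210189312, 590295810358705651712, 3542927783656840757248, 2361183241434822606848, 4722366482869645213696, 0, 0, 0, 73786976294838206464, 0, 0, 590295810358705651712, 0, 2361183241434822606848, 0, 0, 18889465931478580854784, 0, 0, 0, 0]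

/-- displacement columns -/
def colsLS : List ℕ := [0, 35184372088832, 4611721202799476736, 0, 39582418599936, 0, 0, 256, 0, 1024, 0, 4194304, 125886464, 83918848, 100696064, 67108864, 134217728, 12885164032, 8589934592, 51540656128, 34359738368, 4611686018427387905, 0, 117440512, 67108864, 67108864, 0, 0, 536870912, 0, 2147483648, 0, 8589934592, 0, 34359738368, 0, 1786706395136, 1099511627776, 35184372088840, 1099511627776, 0, 4398046511136, 0, 228698418577408, 140737488355328, 0, 140737488355328, 0, 27670679060517748736, 18446744073709551616, 110682716242070994944, 73786976294838206464, 9007199254740992, 0, 36028797018963968, 0, 147573952589676412928, 4429236190323354370048, 2952631973298135105536, 3542927783656840757248, 2361183241434822606848, 4722366482869645213696, 0, 18446744073709551616, 0, 73786976294838206464, 0, 0, 4132070672510939561984, 2361183241434822606848, 2361183241434822606848, 0, 0, 18889465931478580854784, 0, 75557863725914323419136, 0, 0]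

/-- column basis -/
def basisL : List ℕ := [35184372088832, 256, 16384, 32768, 1048576, 33554432, 67108864, 2147483648, 34359738368, 549755813888, 1099511627776, 35184372088840, 70368744177664, 140737488355328, 562949953421312, 9007199254740992, 576460752303423488, 1152921504606846976, 18446744073709551616, 1180591620717411303424, 2361183241434822606848, 75557863725914323419136]

/-- combinations -/
def combL : List ℕ := [0, 1, 1, 0, 1, 0, 0, 2, 0, 0, 0, 0, 4, 8, 0, 0, 0, 0, 0, 16, 0, 0, 0, 32, 64, 0, 0, 0, 0, 0, 128, 0, 0, 0, 256, 0, 512, 1024, 2048, 0, 0, 0, 0, 4096, 8192, 0, 0, 0, 16384, 0, 0, 0, 32768, 0, 0, 0, 0, 65536, 131072, 0, 0, 0, 0, 262144, 0, 0, 0, 0, 524288, 1048576, 0, 0, 0, 0, 0, 2097152, 0, 0]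

/-- column basis -/
def basisS : List ℕ := [4611686018427387904, 4398046511104, 1024, 4194304, 25174016, 16777216, 100696064, 67108864, 134217728, 12885164032, 8589934592, 17179869184, 34359738368, 4611686018427387905, 536870912, 137438953472, 1099511627776, 4398046511136, 17592186044416, 140737488355328, 9223372036854775808, 18446744073709551616, 110682716242070994944, 73786976294838206464, 36028797018963968, 147573952589676412928, 885731945914210189312, 590295810358705651712, 3542927783656840757248, 2361183241434822606848, 4722366482869645213696, 18889465931478580854784]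

/-- combinations -/
def combS : List ℕ := [0, 0, 1, 0, 2, 0, 0, 0, 0, 4, 0, 8, 16, 32, 64, 128, 256, 512, 1024, 2048, 4096, 8192, 0, 32, 0, 128, 0, 0, 16384, 0, 0, 0, 1024, 0, 0, 0, 32768, 0, 0, 65536, 0, 131072, 0, 262144, 0, 0, 524288, 0, 1048576, 2097152, 4194304, 8388608, 0, 0, 16777216, 0, 33554432, 67108864, 134217728, 268435456, 536870912, 1073741824, 0, 0, 0, 8388608, 0, 0, 134217728, 0, 536870912, 0, 0, 2147483648, 0, 0, 0, 0]

/-- minor rows -/
def rowsS : List ℕ := [0, 5, 10, 13, 15, 18, 22, 24, 26, 27, 29, 33, 34, 35, 37, 40, 42, 44, 47, 51, 62, 63, 64]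

/-- minor columns -/
def picksS : List ℕ := [2, 4, 9, 11, 12, 13, 14, 15, 16, 17, 18, 19, 20, 21, 28, 36, 39, 41, 43, 46, 48, 49, 50]

/-- minor inverse -/
def invS : List ℕ := [1048577, 65538, 4, 64, 8, 136, 16, 272, 512, 32, 2080, 4096, 8192, 1, 1024, 16384, 32768, 2, 131072, 262144, 2097152, 4194304, 524288]

/-- minor rows -/
def rowsLS : List ℕ := [0, 3, 5, 8, 10, 13, 15, 18, 20, 22, 24, 26, 27, 29, 31, 33, 35, 37, 40, 42, 44, 45, 47, 49, 51, 53, 55, 58, 60, 62, 64, 66, 67]

/-- minor columns -/
def picksLS : List ℕ := [1, 2, 4, 7, 9, 11, 12, 13, 14, 15, 16, 17, 18, 19, 20, 21, 28, 30, 36, 37, 38, 41, 43, 44, 48, 49, 50, 51, 52, 54, 56, 57, 58]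

/-- minor inverse -/
def invLS : List ℕ := [539492359, 536870913, 524292, 8, 16, 512, 32, 1056, 1088, 2112, 4096, 128, 32896, 256, 65792, 1, 8192, 16384, 131072, 393216, 2, 4, 1048576, 5242880, 8388608, 1082130432, 16777216, 2164260864, 33554432, 67108864, 4294967296, 134217728, 402653184]

/-- The index at a position. -/
def ixE : ℕ → chevE6.Idx := fun i =>
  if i < 6 then Sum.inl ⟨i % 6, Nat.mod_lt _ (by decide)⟩ else Sum.inr ⟨(i - 6) % 72, Nat.mod_lt _ (by decide)⟩

/-- The parity mask of a formal vector. -/
def maskE (L : List (ℕ × ℕ × ℤ)) : ℕ :=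
  L.foldr (fun p acc => if p.2.2 % 2 = 0 then acc else Nat.xor (2 ^ p.1) acc) 0

/-- The table matches the word. -/
def colsOK (w : List ℕ) (cs : List ℕ) : Bool :=
  (List.range 78).all fun c =>
    okRun chevE6 w [(c, 0, 1)] && Nat.xor (maskE (runL chevE6 w [(c, 0, 1)])) (2 ^ c) == cs.getD c 0

theorem cols_check : colsOK [39] colsL = true ∧ colsOK [56, 36] colsS = true ∧ colsOK [56, 36, 39] colsLS = true := by
  decide +kernel

/-- A matrix given by the bit masks of its columns. -/
def bitMat (R : Type u) [Zero R] [One R] {ι κ : Type} (cs : List ℕ) (f : ι → ℕ) (g : κ → ℕ) : Matrix ι κ R :=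
  Matrix.of fun x y => if (cs.getD (g y) 0).testBit (f x) then 1 else 0

/-- The xor of the selected basis masks. -/
def xsum (basis : List ℕ) (m : ℕ) : ℕ → ℕ
  | 0 => 0
  | j + 1 => Nat.xor (xsum basis m j) (if m.testBit j then basis.getD j 0 else 0)

/-- The selected minor. -/
def minorOf (cs rows picks : List ℕ) (k : ℕ) : Matrix (Fin k) (Fin k) (ZMod 2) :=
  Matrix.of fun i j => if (cs.getD (picks.getD j.val 0) 0).testBit (rows.getD i.val 0) then 1 else 0

/-- The claimed inverse. -/
def invOf (inv : List ℕ) (k : ℕ) : Matrix (Fin k) (Fin k) (ZMod 2) :=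
  Matrix.of fun i j => if (inv.getD i.val 0).testBit j.val then 1 else 0

theorem minor_S : invOf invS 23 * minorOf colsS rowsS picksS 23 = 1 := by decide +kernel

theorem minor_LS : invOf invLS 33 * minorOf colsLS rowsLS picksLS 33 = 1 := by decide +kernel

theorem code_ixE : ∀ i < 78, code chevE6 (ixE i) = i := by decide +kernel

theorem picks_lt : (∀ j < 23, picksS.getD j 0 < 78 ∧ rowsS.getD j 0 < 78) ∧
    ∀ j < 33, picksLS.getD j 0 < 78 ∧ rowsLS.getD j 0 < 78 := by decide +kernel

theorem fac_L : ∀ c < 78, xsum basisL (combL.getD c 0) 22 = colsL.getD c 0 := by decide +kernel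

theorem fac_S : ∀ c < 78, xsum basisS (combS.getD c 0) 32 = colsS.getD c 0 := by decide +kernel

theorem code78 (x : chevE6.Idx) : code chevE6 x < 78 := by
  have h := code_lt x
  have e : chevE6.rank + chevE6.nroots = 78 := by decide +kernel
  rwa [e] at h

variable {K : Type u} [Field K] [CharP K 2]

theorem bit_xor (a b i : ℕ) : ((if (Nat.xor a b).testBit i then 1 else 0) : K) =
    (if a.testBit i then 1 else 0) + if b.testBit i then 1 else 0 := by
  show ((if (a ^^^ b).testBit i then 1 else 0) : K) = _
  rw [Nat.testBit_xor]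
  cases a.testBit i <;> cases b.testBit i <;> simp [CharTwo.add_self_eq_zero]

theorem ev_maskE (L : List (ℕ × ℕ × ℤ)) (x : chevE6.Idx) :
    ev chevE6 (1 : K) L x = if (maskE L).testBit (code chevE6 x) then 1 else 0 := by
  induction L with
  | nil => simp [maskE]
  | cons p L ih =>
    rw [ev_cons, one_pow, mul_one, Pi.add_apply, ih, Pi.smul_apply, smul_eq_mul]
    show _ = ((if (if p.2.2 % 2 = 0 then maskE L else Nat.xor (2 ^ p.1) (maskE L)).testBit (code chevE6 x) then 1 else 0) : K)
    by_cases h : p.2.2 % 2 = 0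
    · have : ((p.2.2 : ℤ) : K) = 0 := by
        obtain ⟨k, hk⟩ := Int.dvd_of_emod_eq_zero h
        rw [hk]; push_cast; rw [CharTwo.two_eq_zero, zero_mul]
      rw [if_pos h, this, zero_mul, zero_add]
    · have : ((p.2.2 : ℤ) : K) = 1 := by
        obtain ⟨k, hk⟩ : ∃ k, p.2.2 = 2 * k + 1 := ⟨p.2.2 / 2, by omega⟩
        rw [hk]; push_cast; rw [CharTwo.two_eq_zero, zero_mul, zero_add]
      rw [if_neg h, this, one_mul, bit_xor]
      congr 1
      simp [bv, Nat.testBit_two_pow, eq_comm]

/-- The displacement of a product of root elements. -/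
theorem disp_eq {w cs : List ℕ} (h : colsOK w cs = true) :
    ((w.map fun r => cert6.{u}.xu r (1 : K)).prod : GL chevE6.Idx K).1 - 1 =
      bitMat K cs (code chevE6) (code chevE6) := by
  ext x y
  simp only [colsOK, List.all_eq_true, Bool.and_eq_true, beq_iff_eq] at h
  obtain ⟨h1, h2⟩ := h (code chevE6 y) (List.mem_range.mpr (code78 y))
  have hv : ev chevE6 (1 : K) [(code chevE6 y, 0, 1)] = Pi.single y (1 : K) := by
    funext z
    simp [ev, bv, Pi.single_apply, code_injective.eq_iff]
  have e := congrFun (ev_run cert6.{u} (1 : K) w _ h1) x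
  rw [hv, Matrix.mulVec_single_one, Matrix.col_apply, ev_maskE] at e
  rw [Matrix.sub_apply, e, bitMat, Matrix.of_apply, ← h2, bit_xor, CharTwo.sub_eq_add]
  congr 1
  simp [Matrix.one_apply, Nat.testBit_two_pow, code_injective.eq_iff, eq_comm]

theorem xsum_eq (basis : List ℕ) (m i : ℕ) : ∀ r : ℕ, ((if (xsum basis m r).testBit i then 1 else 0) : K) =
    ∑ j : Fin r, ((if (basis.getD j.val 0).testBit i then 1 else 0) : K) * (if m.testBit j.val then 1 else 0) := by
  intro r
  induction r with
  | zero => simp [xsum]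
  | succ r ih =>
    rw [Fin.sum_univ_castSucc, xsum, bit_xor, ih]
    congr 1
    cases hm : m.testBit r <;> simp [hm]

theorem rank_le_of_fac {cs basis comb : List ℕ} {r : ℕ} (h : ∀ c < 78, xsum basis (comb.getD c 0) r = cs.getD c 0) :
    (bitMat K cs (code chevE6) (code chevE6)).rank ≤ r := by
  have e : bitMat K cs (code chevE6) (code chevE6) =
      (bitMat K basis (code chevE6) (fun j : Fin r => j.val)) *
        (Matrix.of fun (j : Fin r) (y : chevE6.Idx) =>
          ((if (comb.getD (code chevE6 y) 0).testBit j.val then 1 else 0) : K)) := by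
    ext x y
    rw [bitMat, Matrix.of_apply, ← h _ (code78 y), xsum_eq, Matrix.mul_apply]
    rfl
  rw [e]
  exact (Matrix.rank_mul_le_left _ _).trans ((Matrix.rank_le_card_width _).trans (le_of_eq (Fintype.card_fin r)))

theorem le_rank_of_minor {cs rows picks inv : List ℕ} {k : ℕ} (hp : ∀ j < k, picks.getD j 0 < 78 ∧ rows.getD j 0 < 78)
    (h : invOf inv k * minorOf cs rows picks k = 1) : k ≤ (bitMat K cs (code chevE6) (code chevE6)).rank := by
  set φ : ZMod 2 →+* K := ZMod.castHom (dvd_refl 2) K
  have e := congrArg (fun M : Matrix (Fin k) (Fin k) (ZMod 2) => M.map φ) h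
  simp only [Matrix.map_mul, Matrix.map_one φ (map_zero φ) (map_one φ)] at e
  have hm : (minorOf cs rows picks k).map φ =
      (bitMat K cs (code chevE6) (code chevE6)).submatrix (fun i : Fin k => ixE (rows.getD i.val 0))
        (fun j : Fin k => ixE (picks.getD j.val 0)) := by
    ext i j
    rw [Matrix.map_apply, Matrix.submatrix_apply, bitMat, minorOf, Matrix.of_apply, Matrix.of_apply,
      code_ixE _ (hp i.val i.isLt).2, code_ixE _ (hp j.val j.isLt).1, apply_ite φ, map_one, map_zero]
  rw [hm] at e
  have hM : ∀ M : Matrix chevE6.Idx chevE6.Idx K, ∀ (f g : Fin k → chevE6.Idx),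
      M.submatrix f g = (1 : Matrix chevE6.Idx chevE6.Idx K).submatrix f id * M *
        (1 : Matrix chevE6.Idx chevE6.Idx K).submatrix id g := fun M f g => by
    rw [← Matrix.submatrix_id_id ((1 : Matrix chevE6.Idx chevE6.Idx K).submatrix f id * M)]
    ext i j
    simp [Matrix.mul_apply, Matrix.one_apply]
  have h1 := congrArg Matrix.rank e
  rw [Matrix.rank_one, Fintype.card_fin] at h1
  calc k = _ := h1.symm
    _ ≤ _ := Matrix.rank_mul_le_right _ _
    _ ≤ _ := by
        rw [hM]
        exact (Matrix.rank_mul_le_left _ _).trans (Matrix.rank_mul_le_right _ _)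

/-- The rank of a displacement is a class invariant. -/
theorem rank_conj {a b k : GL chevE6.Idx K} (h : k * a * k⁻¹ = b) : (b.1 - 1).rank ≤ (a.1 - 1).rank := by
  have : b.1 - 1 = k.1 * (a.1 - 1) * (k⁻¹ : GL chevE6.Idx K).1 := by
    rw [← h, Matrix.mul_sub, Matrix.sub_mul, Matrix.mul_one, Units.mul_inv, Units.val_mul, Units.val_mul]
  rw [this]
  exact (Matrix.rank_mul_le_left _ _).trans (Matrix.rank_mul_le_right _ _)

/-- The long representative. -/
noncomputable def repL : GL chevE6.Idx K := ([39].map fun r => cert6.{u}.xu r (1 : K)).prod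
/-- The short representative. -/
noncomputable def repS : GL chevE6.Idx K := ([56, 36].map fun r => cert6.{u}.xu r (1 : K)).prod
/-- The mixed representative. -/
noncomputable def repLS : GL chevE6.Idx K := ([56, 36, 39].map fun r => cert6.{u}.xu r (1 : K)).prod

theorem rank_facts : ((repL (K := K)).1 - 1).rank ≤ 22 ∧ 23 ≤ ((repS (K := K)).1 - 1).rank ∧
    ((repS (K := K)).1 - 1).rank ≤ 32 ∧ 33 ≤ ((repLS (K := K)).1 - 1).rank := by
  rw [show (repL (K := K)).1 - 1 = _ from disp_eq cols_check.1,
    show (repS (K := K)).1 - 1 = _ from disp_eq cols_check.2.1,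
    show (repLS (K := K)).1 - 1 = _ from disp_eq cols_check.2.2]
  exact ⟨rank_le_of_fac fac_L, le_rank_of_minor picks_lt.1 minor_S, rank_le_of_fac fac_S,
    le_rank_of_minor picks_lt.2 minor_LS⟩

end Cfsg.Agent.E6Two
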