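import Cfsg.Agent.Chars2.E6Two.Data
import Cfsg.Agent.Chars2.E6Two.Rank
import Cfsg.Agent.Chev.TwistTwoGenTools
import Cfsg.Agent.Chev.TwistOrdersByType

/-! ²E₆(q), q even, has exactly three classes of involutions. -/

set_option autoImplicit false

universe u

namespace Cfsg.Agent.E6Two

open Cfsg.Lie Cfsg.Agent.Chev Cfsg.Agent.Chev.TwoGenTools
open scoped Matrix MatrixGroups

theorem small_sets : (∀ T ∈ terms, okB T = true ∧ rhoB T = true) ∧
    (indB (2 ^ 39) 39 = true) ∧ indB (2 ^ 56 + 2 ^ 36) 56 = true ∧ indB (2 ^ 56 + 2 ^ 36) 36 = true ∧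
    indB (2 ^ 56 + 2 ^ 36 + 2 ^ 39) 56 = true ∧ indB (2 ^ 56 + 2 ^ 36 + 2 ^ 39) 36 = true ∧
    indB (2 ^ 56 + 2 ^ 36 + 2 ^ 39) 39 = true ∧
    del (2 ^ 39) 39 = 0 ∧ del (del (2 ^ 56 + 2 ^ 36) 56) 36 = 0 ∧
    del (del (del (2 ^ 56 + 2 ^ 36 + 2 ^ 39) 56) 36) 39 = 0 ∧
    rho 56 = 36 ∧ rho 36 = 56 ∧ rho 39 = 39 := by decide +kernel

theorem pos_mask : ∀ r < 72, (4722366482800925736960 : ℕ).testBit r = true ↔ 36 ≤ r := by decide +kernel

theorem cart_vals :
    (∀ k < 6, chevE6.cartan k 56 = [2, 0, -1, 0, 0, 0].getD k 0 ∧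
      chevE6.cartan k 36 = [0, 0, 0, 0, -1, 2].getD k 0 ∧ chevE6.cartan k 39 = [0, -1, -1, 2, -1, 0].getD k 0) ∧
    [56, 36, 39].all (fun a => [56, 36, 39].all fun b => (addTo a).all fun p => p.1 != b) = true := by
  decide +kernel

variable {K : Type u} [Field K] [CharP K 2] (τ : K →+* K) (hτ : ∀ x, (τ)^[2] x = x)

theorem span_zero {g : GL chevE6.Idx K} (h : g ∈ spn K 0) : g = 1 := by
  rw [spn, Cert.span_empty cert6.{u} (fun r hr => by simp [Mem] at hr), Subgroup.mem_bot] at h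
  exact h

/-- The shape of an element in one of the final configurations. -/
theorem shape {T : ℕ} (hT : T ∈ terms) {g : GL chevE6.Idx K} (hfix : (tE6 τ hτ).sigma g = g)
    (hm : g ∈ spn K T) (hn : ∀ r, Mem T r → g ∉ spn K (del T r)) :
    g = 1 ∨ (∃ e, e ≠ 0 ∧ τ e = e ∧ g = cert6.{u}.xu 39 e) ∨
      (∃ c, c ≠ 0 ∧ g = cert6.{u}.xu 56 c * cert6.{u}.xu 36 (τ c)) ∨
      ∃ c e, c ≠ 0 ∧ e ≠ 0 ∧ τ e = e ∧
        g = cert6.{u}.xu 56 c * cert6.{u}.xu 36 (τ c) * cert6.{u}.xu 39 e := by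
  obtain ⟨hok, i1, i2, i3, i4, i5, i6, d1, d2, d3, r56, r36, r39⟩ := small_sets
  have hO : ∀ T ∈ terms, Ok T ∧ RhoSt T := fun T hT =>
    ⟨okB_ok (hok T hT).1, rhoB_ok (okB_ok (hok T hT).1) (hok T hT).2⟩
  simp only [terms, List.mem_cons, List.not_mem_nil, or_false] at hT
  rcases hT with rfl | rfl | rfl | rfl
  · exact Or.inl (span_zero hm)
  · obtain ⟨hS, hρ⟩ := hO (2 ^ 39) (by simp [terms])
    have m39 : Mem (2 ^ 39) 39 := by decide
    obtain ⟨e, he⟩ := crd_exists hS m39 (indB_ok hS i1) hm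
    have he' := crd_sig τ hτ hS hρ (hS.range 39 m39) (indB_ok hS i1) hfix he
    rw [r39] at he'
    refine Or.inr (Or.inl ⟨e, fun h0 => hn 39 m39 (crd_zero_iff.mp (h0 ▸ he)),
      crd_uniq hS m39 (indB_ok hS i1) he' he, ?_⟩)
    have := he
    unfold Crd at this
    rw [d1] at this
    exact (inv_mul_eq_one.mp (span_zero this)).symm
  · obtain ⟨hS, hρ⟩ := hO (2 ^ 56 + 2 ^ 36) (by simp [terms])
    have m56 : Mem (2 ^ 56 + 2 ^ 36) 56 := by decide
    have m36 : Mem (2 ^ 56 + 2 ^ 36) 36 := by decide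
    obtain ⟨c, hc⟩ := crd_exists hS m56 (indB_ok hS i2) hm
    have hc' := crd_sig τ hτ hS hρ (hS.range 56 m56) (indB_ok hS i2) hfix hc
    rw [r56] at hc'
    refine Or.inr (Or.inr (Or.inl ⟨c, fun h0 => hn 56 m56 (crd_zero_iff.mp (h0 ▸ hc)), ?_⟩))
    have h2 := peel hS m56 (indB_ok hS i2) m36 (indB_ok hS i3) (by decide) hc hc'
    unfold Crd at h2
    rw [d2] at h2
    have := inv_mul_eq_one.mp (span_zero h2)
    rw [this, mul_inv_cancel_left]
  · obtain ⟨hS, hρ⟩ := hO (2 ^ 56 + 2 ^ 36 + 2 ^ 39) (by simp [terms])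
    have m56 : Mem (2 ^ 56 + 2 ^ 36 + 2 ^ 39) 56 := by decide
    have m36 : Mem (2 ^ 56 + 2 ^ 36 + 2 ^ 39) 36 := by decide
    have m39 : Mem (2 ^ 56 + 2 ^ 36 + 2 ^ 39) 39 := by decide
    have j56 := indB_ok hS i4
    have j36 := indB_ok hS i5
    have j39 := indB_ok hS i6
    obtain ⟨c, hc⟩ := crd_exists hS m56 j56 hm
    obtain ⟨e, he⟩ := crd_exists hS m39 j39 hm
    have hc' := crd_sig τ hτ hS hρ (hS.range 56 m56) j56 hfix hc
    have he' := crd_sig τ hτ hS hρ (hS.range 39 m39) j39 hfix he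
    rw [r56] at hc'
    rw [r39] at he'
    refine Or.inr (Or.inr (Or.inr ⟨c, e, fun h0 => hn 56 m56 (crd_zero_iff.mp (h0 ▸ hc)),
      fun h0 => hn 39 m39 (crd_zero_iff.mp (h0 ▸ he)), crd_uniq hS m39 j39 he' he, ?_⟩))
    have hS1 := hS.delete j56
    have a36 := peel hS m56 j56 m36 j36 (by decide) hc hc'
    have a39 := peel hS m56 j56 m39 j39 (by decide) hc he
    have h3 := peel hS1 (mem_del.mpr ⟨m36, by decide⟩) (j36.mono fun z hz => (mem_del.mp hz).1)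
      (mem_del.mpr ⟨m39, by decide⟩) (j39.mono fun z hz => (mem_del.mp hz).1) (by decide) a36 a39
    unfold Crd at h3
    rw [d3] at h3
    have := inv_mul_eq_one.mp (span_zero h3)
    rw [this, mul_assoc, mul_inv_cancel_left, mul_inv_cancel_left]

/-- A torus element scaling the three orthogonal roots. -/
theorem scaling (x w : Kˣ) (hw : τ (w : K) = w) :
    ∃ h ∈ (tE6 τ hτ).small, ∀ a b e : K,
      h * (cert6.{u}.xu 56 a * cert6.{u}.xu 36 b * cert6.{u}.xu 39 e) * h⁻¹ =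
        cert6.{u}.xu 56 ((x : K) ^ 2 * a) * cert6.{u}.xu 36 ((τ (x : K)) ^ 2 * b) *
          cert6.{u}.xu 39 ((w : K) ^ 2 * e) := by
  set T : Kˣ →* Kˣ := Units.map (τ : K →* K) with hTdef
  let cc : Fin 6 → Kˣ := ![x, 1, 1, w, 1, T x]
  let nf : Fin 6 → Fin 6 := ![5, 1, 4, 3, 2, 0]
  have hnf : ∀ k : Fin 6, (nf k : ℕ) = gE6.nodeF k := by decide +kernel
  set S := tE6 τ hτ
  have hshift : S.shift cc = cc := by
    funext j
    obtain ⟨k, rfl⟩ := S.nodeEquiv.surjective j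
    refine (S.shift_node cc k).trans ?_
    show T (cc k) = cc (S.nodeFin k)
    rw [show S.nodeFin k = nf k from Fin.ext (hnf k).symm]
    fin_cases k
    · rfl
    · exact map_one T
    · exact map_one T
    · exact Units.ext hw
    · exact map_one T
    · exact Units.ext (hτ (x : K))
  refine ⟨cert6.{u}.torusHom cc, S.torusHom_mem_small hshift, fun a b e => ?_⟩
  have key : ∀ r < 72, ∀ t : K, cert6.{u}.torusHom cc * cert6.{u}.xu r t * (cert6.{u}.torusHom cc)⁻¹ =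
      cert6.{u}.xu r (((∏ k : Fin 6, cc k ^ chevE6.cartan (k : ℕ) r : Kˣ) : K) * t) :=
    fun r hr t => torusHom_conj cert6.{u} cc (nroots_eq.symm ▸ hr) t
  obtain ⟨hv, -⟩ := cart_vals
  have hv' : ∀ k : Fin 6, chevE6.cartan (k : ℕ) 56 = ![2, 0, -1, 0, 0, 0] k ∧
      chevE6.cartan (k : ℕ) 36 = ![0, 0, 0, 0, -1, 2] k ∧ chevE6.cartan (k : ℕ) 39 = ![0, -1, -1, 2, -1, 0] k := by
    intro k
    have := hv k.val k.isLt
    fin_cases k <;> exact this
  have split3 : ∀ (h a b c : GL chevE6.Idx K), h * (a * b * c) * h⁻¹ =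
      (h * a * h⁻¹) * (h * b * h⁻¹) * (h * c * h⁻¹) := fun h a b c => by group
  rw [split3, key 56 (by norm_num), key 36 (by norm_num), key 39 (by norm_num)]
  simp only [Fin.prod_univ_six, (hv' _).1, (hv' _).2.1, (hv' _).2.2]
  simp [cc, hTdef]

theorem commute_reps {a b : ℕ} (ha : a ∈ [56, 36, 39]) (hb : b ∈ [56, 36, 39]) (s t : K) :
    Commute (cert6.{u}.xu a s) (cert6.{u}.xu b t) := by
  obtain ⟨-, h⟩ := cart_vals
  simp only [List.all_eq_true] at h
  have hR : ∀ z ∈ [56, 36, 39], InR z := by decide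
  rcases conj_pair (hR a ha) (hR b hb) s t with ⟨-, e⟩ | ⟨v, hv, -, -⟩
  · exact mul_inv_eq_iff_eq_mul.mp e
  · exact absurd rfl (bne_iff_ne.mp (h a ha b hb _ hv))

theorem repL_eq : repL (K := K) = cert6.{u}.xu 39 1 := by simp [repL]

theorem repS_eq : repS (K := K) = cert6.{u}.xu 56 1 * cert6.{u}.xu 36 1 := by simp [repS]

theorem repLS_eq : repLS (K := K) = cert6.{u}.xu 56 1 * cert6.{u}.xu 36 1 * cert6.{u}.xu 39 1 := by
  simp [repLS, mul_assoc]

theorem reps_mem : repL (K := K) ∈ (tE6 τ hτ).small ∧ repS (K := K) ∈ (tE6 τ hτ).small ∧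
    repLS (K := K) ∈ (tE6 τ hτ).small := by
  obtain ⟨-, -, -, -, -, -, -, -, -, -, r56, -, r39⟩ := small_sets
  have h1 : cert6.{u}.xu 39 (1 : K) ∈ (tE6 τ hτ).small := long_mem τ hτ (by decide) r39 (map_one τ)
  have h2 := short_mem τ hτ (K := K) (r := 56) (by decide) (by rw [r56]; decide) 1
  rw [r56, map_one] at h2
  rw [repL_eq, repS_eq, repLS_eq]
  exact ⟨h1, h2, mul_mem h2 h1⟩

theorem reps_sq : repL (K := K) * repL (K := K) = 1 ∧ repS (K := K) * repS (K := K) = 1 ∧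
    repLS (K := K) * repLS (K := K) = 1 := by
  have sq : ∀ r, cert6.{u}.xu r (1 : K) * cert6.{u}.xu r (1 : K) = 1 := fun r => by
    rw [Cert.xu_add, CharTwo.add_self_eq_zero, Cert.xu_zero]
  have h2 : (cert6.{u}.xu 56 (1 : K) * cert6.{u}.xu 36 1) * (cert6.{u}.xu 56 (1 : K) * cert6.{u}.xu 36 1) = 1 := by
    rw [(commute_reps (a := 36) (b := 56) (by simp) (by simp) 1 1).mul_mul_mul_comm, sq, sq, one_mul]
  rw [repL_eq, repS_eq, repLS_eq]
  refine ⟨sq 39, h2, ?_⟩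
  rw [(Commute.mul_right (commute_reps (a := 39) (b := 56) (by simp) (by simp) 1 1)
    (commute_reps (a := 39) (b := 36) (by simp) (by simp) 1 1)).mul_mul_mul_comm, h2, sq, one_mul]

/-- Every involution in the unipotent part is conjugate to one of the three representatives. -/
theorem classify [Finite K] (hne : ∃ y, τ y ≠ y) {g : GL chevE6.Idx K} (hfix : (tE6 τ hτ).sigma g = g)
    (hsq : g * g = 1) (hg : g ≠ 1) (hm : g ∈ chevE6.posUnipotent K) :
    ∃ k ∈ (tE6 τ hτ).small, k * g * k⁻¹ = repL ∨ k * g * k⁻¹ = repS ∨ k * g * k⁻¹ = repLS := by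
  obtain ⟨s, hs⟩ := cert_top
  have hQ := cert_ok τ hτ hne cert cert_check _ hs
  have hmem : g ∈ spn K 4722366482800925736960 := by
    have hle : chevE6.posUnipotent K ≤ spn K 4722366482800925736960 :=
      Cert.span_mono cert6.{u} (P := chevE6.IsPosRoot) fun r hr => by
        have hr72 : r < 72 := nroots_eq ▸ hr.1
        exact (pos_mask r hr72).mpr ((pos_iff r hr72).mp hr)
    exact hle hm
  obtain ⟨h, hh, T, hT, h1, h2⟩ := hQ g ⟨hfix, hsq, hmem, fun r hr => by simp [Mem] at hr⟩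
  have hf : (tE6 τ hτ).sigma (h * g * h⁻¹) = h * g * h⁻¹ := by
    have : (tE6 τ hτ).sigma h = h := (tE6 τ hτ).small_le_fixed hh
    rw [map_mul, map_mul, map_inv, this, hfix]
  have inv_sq : ∀ c : K, c ≠ 0 → ∃ x : Kˣ, (x : K) ^ 2 * c = 1 := by
    intro c hc
    obtain ⟨x, hx⟩ := sq_root c⁻¹
    have hx0 : x ≠ 0 := fun e => inv_ne_zero hc (by rw [← hx, e, mul_zero])
    exact ⟨Units.mk0 x hx0, by simp [pow_two, hx, hc]⟩
  have tsq : ∀ (x : Kˣ) (c : K), (x : K) ^ 2 * c = 1 → τ (x : K) ^ 2 * τ c = 1 := fun x c e => by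
    rw [← map_pow, ← map_mul, e, map_one]
  have fixw : ∀ (x : Kˣ) (c : K), τ c = c → (x : K) ^ 2 * c = 1 → τ (x : K) = x := fun x c hc e => by
    refine fix_sqrt τ ?_
    have hxx : (x : K) * x = c⁻¹ := eq_inv_of_mul_eq_one_left (by rw [← pow_two]; exact e)
    rw [hxx, map_inv₀, hc]
  rcases shape τ hτ hT hf h1 h2 with e | ⟨e, he0, hee, eq⟩ | ⟨c, hc0, eq⟩ | ⟨c, e, hc0, he0, hee, eq⟩
  · exfalso
    exact hg (by rw [conj_eq_one_iff] at e; exact e)
  · obtain ⟨w, hw⟩ := inv_sq e he0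
    obtain ⟨t, ht, key⟩ := scaling τ hτ 1 w (fixw w e hee hw)
    refine ⟨t * h, mul_mem ht hh, Or.inl ?_⟩
    have := key 0 0 e
    simp only [Cert.xu_zero, one_mul, mul_zero, hw] at this
    rw [show t * h * g * (t * h)⁻¹ = t * (h * g * h⁻¹) * t⁻¹ by group, eq, this, repL_eq]
  · obtain ⟨x, hx⟩ := inv_sq c hc0
    obtain ⟨t, ht, key⟩ := scaling τ hτ x 1 (map_one τ)
    refine ⟨t * h, mul_mem ht hh, Or.inr (Or.inl ?_)⟩
    have := key c (τ c) 0
    simp only [Cert.xu_zero, mul_one, mul_zero, hx, tsq x c hx] at this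
    rw [show t * h * g * (t * h)⁻¹ = t * (h * g * h⁻¹) * t⁻¹ by group, eq, this, repS_eq]
  · obtain ⟨x, hx⟩ := inv_sq c hc0
    obtain ⟨w, hw⟩ := inv_sq e he0
    obtain ⟨t, ht, key⟩ := scaling τ hτ x w (fixw w e hee hw)
    refine ⟨t * h, mul_mem ht hh, Or.inr (Or.inr ?_)⟩
    have := key c (τ c) e
    rw [hx, tsq x c hx, hw] at this
    rw [show t * h * g * (t * h)⁻¹ = t * (h * g * h⁻¹) * t⁻¹ by group, eq, this, repLS_eq]

theorem three_classes [Fintype K] {q : ℕ} (hK : Fintype.card K = q ^ 2) :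
    (ConjClasses.mk '' {g : ↥(twistedE6 K q) | orderOf g = 2}).ncard = 3 := by
  classical
  obtain ⟨n, hp, hn⟩ := FiniteField.card K 2
  obtain ⟨a, -, hqa⟩ : ∃ a ≤ (n : ℕ), q = 2 ^ a := (Nat.dvd_prime_pow Nat.prime_two).mp
    (by rw [← hn, hK]; exact dvd_pow_self _ two_ne_zero)
  have ha : a ≠ 0 := by
    rintro rfl
    rw [pow_zero] at hqa
    rw [hqa, one_pow] at hK
    have := Fintype.one_lt_card (α := K)
    omega
  have hq : IsPrimePow q := hqa ▸ ⟨2, a, Nat.prime_two.prime, Nat.pos_of_ne_zero ha, rfl⟩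
  obtain ⟨τ, hτ, he, -, hfix, -⟩ := exists_tE6 hq hK
  have hne : ∃ y, τ y ≠ y := by
    by_contra hno
    push Not at hno
    rw [Nat.card_congr (Equiv.subtypeUnivEquiv hno), Nat.card_eq_fintype_card, hK] at hfix
    have h2 : 2 ≤ q := hq.two_le
    nlinarith
  have hord := orderE6t hq hK
  have hU : Nat.card ↥(chevE6.posUnipotent K ⊓ twistedE6 K q) = q ^ 36 := E6_unip_card hq hK
  rw [he] at hord hU ⊢
  set S := tE6 τ hτ
  obtain ⟨mL, mS, mLS⟩ := reps_mem (K := K) τ hτ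
  obtain ⟨sL, sS, sLS⟩ := reps_sq (K := K)
  obtain ⟨uL, lS, uS, lLS⟩ := rank_facts (K := K)
  have rk1 : ((1 : GL chevE6.Idx K).1 - 1).rank = 0 := by simp
  have no : ∀ a b : GL chevE6.Idx K, (a.1 - 1).rank < (b.1 - 1).rank → ∀ k, k * a * k⁻¹ ≠ b := fun a b h k e =>
    absurd (rank_conj e) (not_le.mpr h)
  let vL : ↥S.small := ⟨repL, mL⟩
  let vS : ↥S.small := ⟨repS, mS⟩
  let vLS : ↥S.small := ⟨repLS, mLS⟩
  have nL : repL (K := K) ≠ 1 := by
    rw [repL_eq]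
    exact fun e => one_ne_zero (Cert.xu_eq_one cert6.{u} (nroots_eq.symm ▸ (by norm_num : 39 < 72)) e)
  have nS : repS (K := K) ≠ 1 := fun e => by rw [e, rk1] at lS; omega
  have nLS : repLS (K := K) ≠ 1 := fun e => by rw [e, rk1] at lLS; omega
  have o2 : ∀ v : ↥S.small, (v : GL chevE6.Idx K) * v = 1 → (v : GL chevE6.Idx K) ≠ 1 → orderOf v = 2 :=
    fun v h h' => orderOf_eq_prime (by rw [pow_two]; exact Subtype.ext h) fun e => h' (congrArg Subtype.val e)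
  have dist : ∀ a b : ↥S.small, ((a : GL chevE6.Idx K).1 - 1).rank < ((b : GL chevE6.Idx K).1 - 1).rank →
      ConjClasses.mk a ≠ ConjClasses.mk b := fun a b h e => by
    obtain ⟨k, hk⟩ := isConj_iff.mp (ConjClasses.mk_eq_mk_iff_isConj.mp e)
    exact no _ _ h (k : GL chevE6.Idx K) (congrArg Subtype.val hk)
  set U := (chevE6.posUnipotent K ⊓ S.small).subgroupOf S.small with hUdef
  have hUc : Nat.card U = q ^ 36 := by
    rw [Nat.card_congr (Subgroup.subgroupOfEquivOfLe (inf_le_right (a := chevE6.posUnipotent K))).toEquiv, hU]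
  have : Fact (Nat.Prime 2) := ⟨Nat.prime_two⟩
  have hUp : IsPGroup 2 U := IsPGroup.of_card (n := a * 36) (by rw [hUc, hqa, pow_mul])
  obtain ⟨P, hP⟩ := hUp.exists_le_sylow
  have hPU : (P : Subgroup ↥S.small) = U := by
    symm
    refine Subgroup.eq_of_le_of_card_ge hP ?_
    obtain ⟨m, hm⟩ := IsPGroup.iff_card.1 P.isPGroup'
    have hd := dvd_mul_of_dvd_right (Subgroup.card_subgroup_dvd_card (P : Subgroup ↥S.small)) (Nat.gcd 3 (q + 1))
    rw [hord, hm, mul_assoc, mul_assoc, mul_assoc, mul_assoc, mul_assoc] at hd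
    have hq2 : 2 ∣ q := hqa ▸ dvd_pow_self 2 ha
    have hsub : ∀ k, k ≠ 0 → ¬ 2 ∣ q ^ k - 1 := fun k hk h => by
      have := dvd_pow hq2 hk
      have := Nat.one_le_pow k q hq.pos
      omega
    have hadd : ∀ k, k ≠ 0 → ¬ 2 ∣ q ^ k + 1 := fun k hk h => by
      have := dvd_pow hq2 hk
      omega
    have hodd : ¬ 2 ∣ (q ^ 2 - 1) * ((q ^ 5 + 1) * ((q ^ 6 - 1) * ((q ^ 8 - 1) * ((q ^ 9 + 1) * (q ^ 12 - 1))))) := by
      simp only [Nat.Prime.dvd_mul Nat.prime_two, not_or]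
      exact ⟨hsub 2 (by norm_num), hadd 5 (by norm_num), hsub 6 (by norm_num), hsub 8 (by norm_num),
        hadd 9 (by norm_num), hsub 12 (by norm_num)⟩
    rw [hm, hUc]
    exact Nat.le_of_dvd (pow_pos hq.pos _)
      ((((Nat.prime_two.coprime_iff_not_dvd).2 hodd).pow_left m).dvd_of_dvd_mul_right hd)
  have hset : ConjClasses.mk '' {g : ↥S.small | orderOf g = 2} =
      {ConjClasses.mk vL, ConjClasses.mk vS, ConjClasses.mk vLS} := by
    refine Set.Subset.antisymm ?_ ?_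
    · rintro _ ⟨g, hg, rfl⟩
      have hgp : IsPGroup 2 (Subgroup.zpowers g) :=
        IsPGroup.of_card (n := 1) (by rw [Nat.card_zpowers, hg, pow_one])
      obtain ⟨R, hR⟩ := hgp.exists_le_sylow
      obtain ⟨x, hx⟩ := MulAction.exists_smul_eq ↥S.small R P
      have hmem : x * g * x⁻¹ ∈ U := by
        rw [← hPU, ← hx, Sylow.coe_subgroup_smul]
        exact Subgroup.smul_mem_pointwise_smul _ (MulAut.conj x) _ (hR (Subgroup.mem_zpowers g))
      have ho : orderOf (x * g * x⁻¹) = 2 := by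
        rw [show x * g * x⁻¹ = MulAut.conj x g from rfl, MulEquiv.orderOf_eq, hg]
      have hsq : ((x * g * x⁻¹ : ↥S.small) : GL chevE6.Idx K) * ((x * g * x⁻¹ : ↥S.small) : GL chevE6.Idx K) = 1 := by
        have : (x * g * x⁻¹) * (x * g * x⁻¹) = 1 := by rw [← pow_two, ← ho, pow_orderOf_eq_one]
        exact congrArg Subtype.val this
      have h1 : ((x * g * x⁻¹ : ↥S.small) : GL chevE6.Idx K) ≠ 1 := fun h => by
        rw [show x * g * x⁻¹ = 1 from Subtype.ext h, orderOf_one] at ho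
        omega
      obtain ⟨k, hk, hcase⟩ := classify τ hτ hne (S.small_le_fixed (x * g * x⁻¹).2) hsq h1
        (Subgroup.mem_subgroupOf.mp hmem).1
      have conj_of : ∀ v : ↥S.small, k * ((x * g * x⁻¹ : ↥S.small) : GL chevE6.Idx K) * k⁻¹ = v →
          ConjClasses.mk g = ConjClasses.mk v := fun v e =>
        ConjClasses.mk_eq_mk_iff_isConj.mpr (isConj_iff.mpr ⟨⟨k, hk⟩ * x, Subtype.ext (by
          rw [← e]; push_cast; group)⟩)
      rcases hcase with e | e | e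
      · exact Or.inl (conj_of vL e)
      · exact Or.inr (Or.inl (conj_of vS e))
      · exact Or.inr (Or.inr (conj_of vLS e))
    · rintro _ (rfl | rfl | rfl)
      exacts [⟨vL, o2 vL sL nL, rfl⟩, ⟨vS, o2 vS sS nS, rfl⟩, ⟨vLS, o2 vLS sLS nLS, rfl⟩]
  rw [hset]
  have d1 := dist vL vS (lt_of_le_of_lt uL lS)
  have d2 := dist vL vLS (lt_of_le_of_lt uL (lt_of_lt_of_le (by norm_num) lLS))
  have d3 := dist vS vLS (lt_of_le_of_lt uS lLS)
  rw [Set.ncard_insert_of_notMem (by simp [d1, d2]), Set.ncard_pair d3]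

end Cfsg.Agent.E6Two
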