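import Cfsg.Agent.Chars2.E6Two.Coord

/-! Reduction steps for involutions in the unipotent part of ²E₆(q), q even. -/

set_option autoImplicit false

universe u

namespace Cfsg.Agent.E6Two

open Cfsg.Lie Cfsg.Agent.Chev
open scoped Matrix MatrixGroups

variable {K : Type u} [Field K] (τ : K →+* K) (hτ : ∀ x, (τ)^[2] x = x)

/-- The masks of the three representatives, and the empty one. -/
def terms : List ℕ := [0, 2 ^ 39, 2 ^ 56 + 2 ^ 36, 2 ^ 56 + 2 ^ 36 + 2 ^ 39]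

/-- The mask is stable under the graph symmetry. -/
def RhoSt (S : ℕ) : Prop := ∀ r, Mem S r → Mem S (rho r)

/-- Known facts about an involution at a node of the search. -/
structure St (S N : ℕ) (g : GL chevE6.Idx K) : Prop where
  fix : (tE6 τ hτ).sigma g = g
  sq : g * g = 1
  mem : g ∈ spn K S
  non : ∀ r, Mem N r → g ∉ spn K (del S r)

/-- The element is conjugate into one of the configurations of `terms`. -/
def Good (g : GL chevE6.Idx K) : Prop :=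
  ∃ h ∈ (tE6 τ hτ).small, ∃ T ∈ terms,
    h * g * h⁻¹ ∈ spn K T ∧ ∀ r, Mem T r → h * g * h⁻¹ ∉ spn K (del T r)

/-- The goal at a node. -/
def Q (S N : ℕ) : Prop := ∀ g : GL chevE6.Idx K, St τ hτ S N g → Good τ hτ g

theorem good_conj {g : GL chevE6.Idx K} {h : GL chevE6.Idx K} (hh : h ∈ (tE6 τ hτ).small)
    (hg : Good τ hτ (h * g * h⁻¹)) : Good τ hτ g := by
  obtain ⟨k, hk, T, hT, h1, h2⟩ := hg
  refine ⟨k * h, mul_mem hk hh, T, hT, ?_, ?_⟩
  · rwa [show k * h * g * (k * h)⁻¹ = k * (h * g * h⁻¹) * k⁻¹ by group]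
  · intro r hr
    rw [show k * h * g * (k * h)⁻¹ = k * (h * g * h⁻¹) * k⁻¹ by group]
    exact h2 r hr

variable [CharP K 2]

theorem sig_xu {r : ℕ} (hr : r < 72) (t : K) :
    (tE6 τ hτ).sigma (cert6.{u}.xu r t) = cert6.{u}.xu (rho r) (τ t) := by
  rw [(tE6 τ hτ).sigma_xu (nroots_eq.symm ▸ hr)]
  show cert6.{u}.xu (rho r) (((gE6.epsF r : ℤ) : K) * τ t) = _
  rcases sgn_cases (gE6.eps.getD r 0) with e | e
  · rw [show gE6.epsF r = 1 from e, Int.cast_one, one_mul]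
  · rw [show gE6.epsF r = -1 from e, Int.cast_neg, Int.cast_one, CharTwo.neg_eq, one_mul]

include hτ in
omit [CharP K 2] in
theorem tau_tau (x : K) : τ (τ x) = x := hτ x

omit [CharP K 2] in
theorem rho_inj {r s : ℕ} (hr : r < 72) (hs : s < 72) (e : rho r = rho s) : r = s := by
  rw [← (rho_facts r hr).2.1, e, (rho_facts s hs).2.1]

omit [CharP K 2] in
theorem sig_span {S T : ℕ} (hS : Ok S) (h : ∀ r, Mem S r → Mem T (rho r)) {g : GL chevE6.Idx K}
    (hg : g ∈ spn K S) : (tE6 τ hτ).sigma g ∈ spn K T :=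
  (tE6 τ hτ).sigma_span (fun r hr => lt_nroots (hS.range r hr)) (Q := Mem T) h hg

theorem crd_sig {S r : ℕ} (hS : Ok S) (hρ : RhoSt S) (hr : InR r) (hi : Ind S r) {g : GL chevE6.Idx K}
    (hg : (tE6 τ hτ).sigma g = g) {c : K} (hc : Crd S r g c) : Crd S (rho r) g (τ c) := by
  have := sig_span τ hτ (hS.delete hi) (T := del S (rho r)) (fun x hx => mem_del.mpr
    ⟨hρ x (mem_del.mp hx).1, fun e => (mem_del.mp hx).2
      (rho_inj (hS.range x (mem_del.mp hx).1).2 hr.2 e)⟩) hc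
  rw [map_mul, map_inv, sig_xu τ hτ hr.2, hg] at this
  exact this

/-- Orbit elements of a fixed root. -/
theorem long_mem {r : ℕ} (hr : InR r) (hrr : rho r = r) {x : K} (hx : τ x = x) :
    cert6.{u}.xu r x ∈ (tE6 τ hτ).small := by
  have hp : (tE6 τ hτ).G.per r = 1 := by
    show gE6.per r = 1
    rw [(rho_facts r hr.2).2.2.2, if_pos hrr]
  have := (tE6 τ hτ).oe_mem_small (posRoot hr) (t := x) (by
    unfold Twist.Valid; rw [hp, Function.iterate_one]; exact hx)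
  rw [Twist.oe, hp] at this
  simpa using this

/-- Orbit elements of a moved root. -/
theorem short_mem {r : ℕ} (hr : InR r) (hrr : rho r ≠ r) (x : K) :
    cert6.{u}.xu r x * cert6.{u}.xu (rho r) (τ x) ∈ (tE6 τ hτ).small := by
  have hp : (tE6 τ hτ).G.per r = 2 := by
    show gE6.per r = 2
    rw [(rho_facts r hr.2).2.2.2, if_neg hrr]
  have := (tE6 τ hτ).oe_mem_small (posRoot hr) (t := x) ((tE6 τ hτ).valid_of_per_ord hp x)
  rw [Twist.oe, hp] at this
  simp only [List.range_succ, List.range_zero, List.nil_append, List.map_append, List.map_cons, List.map_nil,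
    List.prod_append, List.prod_cons, List.prod_nil, mul_one, Function.iterate_zero, id, Function.iterate_one] at this
  rw [← sig_xu τ hτ hr.2 x]
  exact this

omit [CharP K 2] in
theorem cj_comp (b b2 : ℕ) (x y : K) (g : GL chevE6.Idx K) :
    cj b x (cj b2 y g) =
      (cert6.{u}.xu b x * cert6.{u}.xu b2 y) * g * (cert6.{u}.xu b x * cert6.{u}.xu b2 y)⁻¹ := by
  unfold cj; group

theorem cj_cj (b : ℕ) (x : K) (g : GL chevE6.Idx K) : cj b x (cj b x g) = g := by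
  unfold cj
  have h : cert6.{u}.xu b x * cert6.{u}.xu b x = 1 := by
    rw [Cert.xu_add, CharTwo.add_self_eq_zero, Cert.xu_zero]
  rw [xu_self, show cert6.{u}.xu b x * (cert6.{u}.xu b x * g * cert6.{u}.xu b x) * cert6.{u}.xu b x =
    (cert6.{u}.xu b x * cert6.{u}.xu b x) * g * (cert6.{u}.xu b x * cert6.{u}.xu b x) by group, h, one_mul, mul_one]

theorem crd_ne_zero {S N r : ℕ} {g : GL chevE6.Idx K} (hg : St τ hτ S N g) (hr : Mem N r) {c : K}
    (hc : Crd S r g c) : c ≠ 0 := fun e => hg.non r hr (crd_zero_iff.mp (e ▸ hc))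

/-- The conjugate at the end of a killing step satisfies the child state. -/
theorem finish {S N S' S'' N'' b b2 : ℕ} {g : GL chevE6.Idx K} (hg : St τ hτ S N g) (hS : Ok S) (hS' : Ok S')
    (hb : InR b) (hb2 : InR b2)
    (hsub'' : ∀ r, Mem S'' r → Mem S' r)
    (hN : ∀ r, Mem N'' r → Mem N r ∧ Ind S' r ∧ Stab (del S' r) (del S' r) b ∧ Stab (del S' r) (del S' r) b2)
    (hQ : Q τ hτ S'' N'') {x y : K} (hh : cert6.{u}.xu b x * cert6.{u}.xu b2 y ∈ (tE6 τ hτ).small)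
    (hmem : cj b x (cj b2 y g) ∈ spn K S'') : Good τ hτ g := by
  refine good_conj τ hτ hh ?_
  rw [← cj_comp]
  refine hQ _ ⟨?_, ?_, hmem, ?_⟩
  · have hf : (tE6 τ hτ).sigma (cert6.{u}.xu b x * cert6.{u}.xu b2 y) =
        cert6.{u}.xu b x * cert6.{u}.xu b2 y := (tE6 τ hτ).small_le_fixed hh
    rw [cj_comp, map_mul, map_mul, map_inv, hf, hg.fix]
  · unfold cj
    rw [show ∀ p q : GL chevE6.Idx K, (p * (q * g * q⁻¹) * p⁻¹) * (p * (q * g * q⁻¹) * p⁻¹) =
      p * (q * (g * g) * q⁻¹) * p⁻¹ from fun p q => by group, hg.sq]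
    group
  · intro r hr hmem'
    obtain ⟨hrN, hi, st1, st2⟩ := hN r hr
    have h1 : cj b x (cj b2 y g) ∈ spn K (del S' r) := span_mono (fun z hz =>
      mem_del.mpr ⟨hsub'' z (mem_del.mp hz).1, (mem_del.mp hz).2⟩) hmem'
    have hd := hS'.delete hi
    have h2 := cj_mem hb2 hd (fun _ h => h) st2 (cj_mem hb hd (fun _ h => h) st1 h1 x) y
    rw [cj_cj, cj_cj] at h2
    refine hg.non r hrN (Cert.span_mono cert6.{u} ?_ (Cert.span_inf cert6.{u} hd.closedSet hS.closedSet h2 hg.mem))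
    exact fun z hz => mem_del.mpr ⟨hz.2, (mem_del.mp hz.1).2⟩

/-- The data shared by all killing steps. -/
structure KillPre (S N S' γ b b2 : ℕ) : Prop where
  okS : Ok S
  okS' : Ok S'
  sub : ∀ r, Mem S r → Mem S' r
  rhoS' : RhoSt S'
  inb : InR b
  inb2 : InR b2
  st1 : Stab S' S' b
  st2 : Stab S S' b2
  gmem : Mem S' γ
  gind : Ind S' γ
  gind2 : Ind S' (rho γ)

variable {S N S' γ b b2 : ℕ}

theorem kill_mem (P : KillPre S N S' γ b b2) {g : GL chevE6.Idx K} (hg : g ∈ spn K S) (x y : K) :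
    cj b x (cj b2 y g) ∈ spn K S' :=
  cj_mem P.inb P.okS' (fun _ h => h) P.st1 (cj_mem P.inb2 P.okS P.sub P.st2 hg y) x

theorem kill_zero (P : KillPre S N S' γ b b2) {g : GL chevE6.Idx K} (hg : (tE6 τ hτ).sigma g = g)
    {x y : K} (hh : cert6.{u}.xu b x * cert6.{u}.xu b2 y ∈ (tE6 τ hτ).small)
    (h0 : Crd S' γ (cj b x (cj b2 y g)) 0) : cj b x (cj b2 y g) ∈ spn K (del (del S' γ) (rho γ)) := by
  have hfix : (tE6 τ hτ).sigma (cj b x (cj b2 y g)) = cj b x (cj b2 y g) := by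
    rw [cj_comp, map_mul, map_mul, map_inv,
      show (tE6 τ hτ).sigma (cert6.{u}.xu b x * cert6.{u}.xu b2 y) = _ from (tE6 τ hτ).small_le_fixed hh, hg, MonoidHom.id_apply]
  have h1 := crd_sig τ hτ P.okS' P.rhoS' (P.okS'.range γ P.gmem) P.gind hfix h0
  rw [map_zero] at h1
  refine Cert.span_mono cert6.{u} ?_ (Cert.span_inf cert6.{u} (P.okS'.delete P.gind).closedSet
    (P.okS'.delete P.gind2).closedSet (crd_zero_iff.mp h0) (crd_zero_iff.mp h1))
  exact fun z hz => mem_del.mpr ⟨hz.1, (mem_del.mp hz.2).2⟩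

/-- A step with a single feeding root. -/
theorem kill_single (P : KillPre S N S' γ b b2) {d : ℕ} (hdN : Mem N d) (hdS : Mem S d)
    (hdi : Ind S' d) (hd : (d, γ) ∈ addTo b) (hf1 : ∀ p ∈ addTo b, Mem S' p.1 → p.2 = γ → p.1 = d)
    (hf2 : ∀ p ∈ addTo b2, Mem S p.1 → p.2 ≠ γ) (hf3 : ∀ p ∈ addTo b2, Mem S p.1 → p.2 ≠ d)
    {g : GL chevE6.Idx K} (hg : St τ hτ S N g) :
    ∃ c e, e ≠ 0 ∧ Crd S' γ g c ∧ Crd S d g e ∧ ∀ x y : K, Crd S' γ (cj b x (cj b2 y g)) (c + x * e) := by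
  have hg' := span_mono P.sub hg.mem
  obtain ⟨c, hc⟩ := crd_exists P.okS' P.gmem P.gind hg'
  obtain ⟨e, he⟩ := crd_exists P.okS hdS (hdi.mono P.sub) hg.mem
  refine ⟨c, e, crd_ne_zero τ hτ hg hdN he, hc, he, fun x y => ?_⟩
  exact cj_crd P.inb P.okS' P.okS' (fun _ h => h) P.st1 P.gmem P.gind (P.sub d hdS) hdi hd hf1
    (cj_mem P.inb2 P.okS P.sub P.st2 hg.mem y) x
    (cj_crd_none P.inb2 P.okS P.okS' P.sub P.st2 P.gmem P.gind hf2 hg.mem y hc)
    (cj_crd_none P.inb2 P.okS P.okS' P.sub P.st2 (P.sub d hdS) hdi hf3 hg.mem y (crd_mono P.sub he))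

/-- A step with two conjugate feeding roots. -/
theorem kill_double (P : KillPre S N S' γ b b2) (hρ : RhoSt S) {d : ℕ} (hdN : Mem N d) (hdS : Mem S d)
    (hdi : Ind S' d) (hdi2 : Ind S' (rho d)) (hd : (d, γ) ∈ addTo b) (hd2 : (rho d, γ) ∈ addTo b2)
    (hf1 : ∀ p ∈ addTo b, Mem S' p.1 → p.2 = γ → p.1 = d)
    (hf2 : ∀ p ∈ addTo b2, Mem S p.1 → p.2 = γ → p.1 = rho d)
    (hf3 : ∀ p ∈ addTo b2, Mem S p.1 → p.2 ≠ d)
    {g : GL chevE6.Idx K} (hg : St τ hτ S N g) :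
    ∃ c e, e ≠ 0 ∧ Crd S' γ g c ∧ Crd S d g e ∧
      ∀ x y : K, Crd S' γ (cj b x (cj b2 y g)) (c + y * τ e + x * e) := by
  have hg' := span_mono P.sub hg.mem
  obtain ⟨c, hc⟩ := crd_exists P.okS' P.gmem P.gind hg'
  obtain ⟨e, he⟩ := crd_exists P.okS hdS (hdi.mono P.sub) hg.mem
  have he2 := crd_sig τ hτ P.okS hρ (P.okS.range d hdS) (hdi.mono P.sub) hg.fix he
  refine ⟨c, e, crd_ne_zero τ hτ hg hdN he, hc, he, fun x y => ?_⟩
  exact cj_crd P.inb P.okS' P.okS' (fun _ h => h) P.st1 P.gmem P.gind (P.sub d hdS) hdi hd hf1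
    (cj_mem P.inb2 P.okS P.sub P.st2 hg.mem y) x
    (cj_crd P.inb2 P.okS P.okS' P.sub P.st2 P.gmem P.gind (hρ d hdS) (hdi2.mono P.sub) hd2 hf2 hg.mem y hc he2)
    (cj_crd_none P.inb2 P.okS P.okS' P.sub P.st2 (P.sub d hdS) hdi hf3 hg.mem y (crd_mono P.sub he))

/-- A step with a chain of two feeding roots, the middle one outside `S`. -/
theorem kill_chain (P : KillPre S N S' γ b b2) {d m : ℕ} (hdN : Mem N d) (hdS : Mem S d) (hdi : Ind S d)
    (hmS : ¬ Mem S m) (hmS' : Mem S' m) (hmi : Ind S' m) (hd : (d, m) ∈ addTo b2) (hm : (m, γ) ∈ addTo b)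
    (hf1 : ∀ p ∈ addTo b, Mem S' p.1 → p.2 = γ → p.1 = m)
    (hf2 : ∀ p ∈ addTo b2, Mem S p.1 → p.2 ≠ γ)
    (hf3 : ∀ p ∈ addTo b2, Mem S p.1 → p.2 = m → p.1 = d)
    {g : GL chevE6.Idx K} (hg : St τ hτ S N g) :
    ∃ c e, e ≠ 0 ∧ Crd S' γ g c ∧ Crd S d g e ∧
      ∀ x y : K, Crd S' γ (cj b x (cj b2 y g)) (c + x * (y * e)) := by
  have hg' := span_mono P.sub hg.mem
  obtain ⟨c, hc⟩ := crd_exists P.okS' P.gmem P.gind hg'
  obtain ⟨e, he⟩ := crd_exists P.okS hdS hdi hg.mem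
  refine ⟨c, e, crd_ne_zero τ hτ hg hdN he, hc, he, fun x y => ?_⟩
  have h2 := cj_crd P.inb2 P.okS P.okS' P.sub P.st2 hmS' hmi hdS hdi hd hf3 hg.mem y
    (crd_absent P.sub hmS hg.mem) he
  rw [zero_add] at h2
  exact cj_crd P.inb P.okS' P.okS' (fun _ h => h) P.st1 P.gmem P.gind hmS' hmi hm hf1
    (cj_mem P.inb2 P.okS P.sub P.st2 hg.mem y) x
    (cj_crd_none P.inb2 P.okS P.okS' P.sub P.st2 P.gmem P.gind hf2 hg.mem y hc) h2

theorem sq_root [Finite K] (c : K) : ∃ x, x * x = c := by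
  cases nonempty_fintype K
  obtain ⟨x, hx⟩ := FiniteField.isSquare_of_char_two (ringChar.eq K 2) c
  exact ⟨x, hx.symm⟩

theorem fix_sqrt {x : K} (h : τ (x * x) = x * x) : τ x = x := by
  rw [map_mul] at h
  have : (τ x + x) * (τ x + x) = 0 := by
    rw [show (τ x + x) * (τ x + x) = τ x * τ x + x * x + 2 * (τ x * x) by ring, h, CharTwo.two_eq_zero,
      CharTwo.add_self_eq_zero, zero_mul, add_zero]
  exact CharTwo.add_eq_zero.mp (mul_self_eq_zero.mp this)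

include hτ in
theorem trace_one (hne : ∃ y, τ y ≠ y) : ∃ y, y + τ y = 1 := by
  obtain ⟨y, hy⟩ := hne
  have hs : y + τ y ≠ 0 := fun e => hy (CharTwo.add_eq_zero.mp e).symm
  refine ⟨y / (y + τ y), ?_⟩
  rw [map_div₀, map_add, tau_tau τ hτ, add_comm (τ y) y, ← add_div, div_self hs]

/-- The peeled coordinate. -/
theorem peel {u r : ℕ} (hS : Ok S) (hu : Mem S u) (hui : Ind S u) (hr : Mem S r) (hri : Ind S r) (hne : r ≠ u)
    {g : GL chevE6.Idx K} {a c : K} (ha : Crd S u g a) (hc : Crd S r g c) :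
    Crd (del S u) r ((cert6.{u}.xu u a)⁻¹ * g) c := by
  have hi' : Ind (del S u) r := hri.mono fun x hx => (mem_del.mp hx).1
  have hr' : Mem (del S u) r := mem_del.mpr ⟨hr, hne⟩
  obtain ⟨c', hc'⟩ := crd_exists (hS.delete hui) hr' hi' ha
  have h := crd_mul hS hr hri (crd_other hu hne.symm a) (crd_mono (fun x hx => (mem_del.mp hx).1) hc')
  rw [mul_inv_cancel_left, zero_add] at h
  rwa [crd_uniq hS hr hri hc h]

end Cfsg.Agent.E6Two
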